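import Cfsg.Agent.H36.O84Spec

/-! Tower O84, slot NN: the order of `N(T) ⊓ N(J i)`. -/

set_option autoImplicit false

namespace H87.O84NN

open Matrix Subgroup H36.O84

variable {Γ : Type} [Group Γ] (S : Sys Γ)

theorem act_mul {g h : Γ} {M N : M4} (a : Act S.τ g M) (b : Act S.τ h N) :
    Act S.τ (g * h) (M * N) := fun v => by
  rw [← Matrix.mulVec_mulVec, ← a, ← b]; group

theorem act_unit {g : Γ} {M : M4} (a : Act S.τ g M) : IsUnit M := by
  have : Fact (Nat.Prime 5) := ⟨by norm_num⟩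
  refine Matrix.mulVec_injective_iff_isUnit.1 fun v w e => ?_
  have h := a v
  rw [show M *ᵥ v = M *ᵥ w from e, ← a w] at h
  exact Multiplicative.ofAdd.injective (S.inj (by simpa using h))

theorem act_norm [Finite Γ] {g : Γ} {M : M4} (a : Act S.τ g M) : g ∈ normalizer (S.T : Set Γ) :=
  mem_normalizer_fintype (S := (S.T : Set Γ)) fun _ ⟨v, e⟩ => ⟨_, (e ▸ a v.toAdd).symm⟩

theorem act_clos {ι : Type} (q : ι → Fin 60) {X : Subgroup Γ} (h : ∀ k, S.K (q k) ≤ X) {M : M4}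
    (hM : M ∈ Submonoid.closure (Set.range fun k => r (q k))) : ∃ g ∈ X, Act S.τ g M := by
  induction hM using Submonoid.closure_induction with
  | mem x hx =>
    obtain ⟨k, rfl⟩ := hx
    exact ⟨_, h k (S.νK _), S.νA _⟩
  | one => exact ⟨1, one_mem _, fun v => by simp⟩
  | mul x y _ _ hx hy =>
    obtain ⟨g, hg, a⟩ := hx
    obtain ⟨g', hg', b⟩ := hy
    exact ⟨_, mul_mem hg hg', act_mul S a b⟩

theorem pres' (cr : CertR) {g : Γ} {M : M4} (a : Act S.τ g M) {l l' : Fin 60}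
    (e : M * r l = r l' * M) : cS g (S.K l) = S.K l' := by
  obtain ⟨l'', e', h⟩ := S.pres g M a l
  rwa [cr.1 ((act_unit S a).mul_left_inj.1 (e.symm.trans e'))]

theorem cS_le {g : Γ} {K J : Subgroup Γ} (h : K ≤ J) (hg : g ∈ normalizer (J : Set Γ)) :
    cS g K ≤ J := by
  rintro _ ⟨x, hx, rfl⟩
  exact (mem_normalizer_iff.1 hg x).1 (h hx)

theorem jobNN : JobNN := by
  intro Γ _ _ S i cr cw cd cs cnt good
  have kJ : ∀ k, S.K (Q i k) ≤ S.J i := fun k => le_iSup (fun k => S.K (Q i k)) k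
  have h1 := cnt (normalizer (S.T : Set Γ) ⊓ S.J i) (le_inf le_normalizer good.1) inf_le_left
  rw [good.2] at h1
  have hW : (W i : Set M4) = {M | ∃ g ∈ normalizer (S.T : Set Γ) ⊓ S.J i, Act S.τ g M} := by
    refine Set.eq_of_subset_of_ncard_le (fun M hM => ?_) (by have := cw i; omega)
    obtain ⟨g, hg, a⟩ := act_clos S (Q i) kJ hM
    exact ⟨g, ⟨act_norm S a, hg⟩, a⟩
  rw [cnt _ (le_inf le_normalizer (good.1.trans le_normalizer)) inf_le_left, ← (cs i).1]
  congr 2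
  ext M
  constructor
  · rintro ⟨g, hg, a⟩
    refine ⟨act_unit S a, fun l => (S.pres g M a l).imp fun _ h => h.1, fun k => ?_⟩
    obtain ⟨l', e, h⟩ := S.pres g M a (Q i k)
    exact ⟨l', hW.ge ⟨_, ⟨act_norm S (S.νA l'), (h ▸ cS_le (kJ k) hg.2) (S.νK l')⟩, S.νA l'⟩, e⟩
  · intro hM
    obtain ⟨g, -, a⟩ := act_clos S id (X := ⊤) (fun _ => le_top) ((cs i).2 hM)
    refine ⟨g, ⟨act_norm S a, mem_normalizer_fintype (S := (S.J i : Set Γ)) fun x hx => ?_⟩, a⟩
    have key : S.J i ≤ (S.J i).comap (MulAut.conj g).toMonoidHom := iSup_le fun k => by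
      obtain ⟨l', hl, e⟩ := hM.2.2 k
      obtain ⟨M', hM', k', e'⟩ := cd i l' hl
      obtain ⟨g', hg', a'⟩ := act_clos S (Q i) kJ hM'
      rw [← map_le_iff_le_comap]
      exact (pres' S cr a e).le.trans
        ((pres' S cr a' e').ge.trans (cS_le (kJ k') (le_normalizer hg')))
    exact key hx

end H87.O84NN
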