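import Cfsg.Agent.H42.SimXBSpec

/-! Slot Sr of tower SIM (S3694). -/

set_option autoImplicit false

namespace H87.SimSr

open Module

theorem jobSr : H42.SX.JobSr := by
  intro F K _ _ _ _ _ q s hF hs hx
  obtain ⟨p, hp⟩ := CharP.exists K
  have pp : p.Prime := CharP.char_is_prime K p
  have : Fact p.Prime := ⟨pp⟩
  letI := ZMod.algebra K p
  set n := finrank F K with hn
  have n0 : 0 < n := finrank_pos
  have q2 : 2 ≤ q := by
    have := Fintype.one_lt_card (α := F)
    rw [hF] at this
    by_contra h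
    have : q = 0 ∨ q = 1 := by omega
    rcases this with rfl | rfl <;> simp_all
  have nid : ¬ ∀ x : F, x ^ q = x := by
    intro h
    have h1 : Fintype.card F - 1 ∣ q - 1 := (FiniteField.forall_pow_eq_one_iff F _).1 fun x => by
      apply Units.ext
      have := h x
      rw [show q = q - 1 + 1 by omega, pow_succ] at this
      rw [Units.val_pow_eq_pow_val, Units.val_one]
      exact mul_right_cancel₀ x.ne_zero (this.trans (one_mul _).symm)
    have h2 := Nat.le_of_dvd (by omega) h1
    rw [hF] at h2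
    have : q * 2 ≤ q ^ 2 := by rw [pow_two]; exact Nat.mul_le_mul_left q q2
    omega
  have c1 : Fintype.card K = p ^ finrank (ZMod p) K := by
    rw [Module.card_eq_pow_finrank (K := ZMod p), ZMod.card]
  have c2 : Fintype.card K = (q ^ 2) ^ n := by
    rw [Module.card_eq_pow_finrank (K := F), hF]
  have hd : q ∣ p ^ finrank (ZMod p) K := by
    rw [← c1, c2, ← pow_mul]
    exact dvd_pow_self q (by omega)
  obtain ⟨f, -, rfl⟩ := (Nat.dvd_prime_pow pp).1 hd
  have hM : finrank (ZMod p) K = f * n * 2 := by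
    apply Nat.pow_right_injective pp.two_le
    change p ^ _ = p ^ _
    rw [← c1, c2, ← pow_mul, ← pow_mul]
    congr 1
    ring
  let sa : K →ₐ[ZMod p] K :=
    { s with commutes' := fun r =>
        RingHom.congr_fun (RingHom.ext_zmod (s.comp (algebraMap (ZMod p) K)) (algebraMap (ZMod p) K)) r }
  have hb : Function.Bijective sa := Function.Involutive.bijective hs
  obtain ⟨⟨i, hi⟩, e⟩ := (FiniteField.bijective_frobeniusAlgEquivOfAlgebraic_pow (ZMod p) K).2
    (AlgEquiv.ofBijective sa hb)
  have e' : FiniteField.frobeniusAlgEquivOfAlgebraic (ZMod p) K ^ i = AlgEquiv.ofBijective sa hb := e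
  have sk : ∀ k, s k = k ^ p ^ i := by
    intro k
    have h1 : (AlgEquiv.ofBijective sa hb) k = s k := rfl
    rw [← h1, ← e', AlgEquiv.coe_pow, FiniteField.coe_frobeniusAlgEquivOfAlgebraic_iterate,
      ZMod.card]
  have h2 : FiniteField.frobeniusAlgEquivOfAlgebraic (ZMod p) K ^ (i * 2) = 1 := by
    rw [pow_mul, e', pow_two]
    ext k
    exact hs k
  have h3 := orderOf_dvd_of_pow_eq_one h2
  rw [FiniteField.orderOf_frobeniusAlgEquivOfAlgebraic, hM] at h3
  rw [hM] at hi
  obtain ⟨c, hc⟩ := Nat.dvd_of_mul_dvd_mul_right (by norm_num) h3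
  have hc2 : c = 0 ∨ c = 1 := by
    by_contra h
    have : f * n * 2 ≤ f * n * c := Nat.mul_le_mul_left _ (by omega)
    omega
  have inj := (algebraMap F K).injective
  rcases hc2 with rfl | rfl
  · refine absurd (fun x => inj ?_) nid
    rw [← hx, sk, hc, mul_zero, pow_zero, pow_one]
  · rw [mul_one] at hc
    have sk' : ∀ k, s k = k ^ (p ^ f) ^ n := fun k => by rw [sk, hc, pow_mul]
    refine ⟨?_, sk'⟩
    rw [← Nat.not_even_iff_odd]
    rintro ⟨m, hm⟩
    refine nid fun x => inj ?_
    rw [← hx, sk', ← map_pow, hm, ← two_mul, pow_mul, ← hF, FiniteField.pow_card_pow]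

end H87.SimSr
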