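import Mathlib
import Cfsg.Agent.H68.KcSpec
import Cfsg.Agent.H24.ClassCount

/-! Tower KC, slot Red: the class number bound reduces to primitive groups. -/

set_option autoImplicit false

namespace H87.KcRed

open scoped Classical Pointwise

theorem k_le_of_surj {G H : Type} [Group G] [Group H] [Finite G] (f : G →* H)
    (hf : Function.Surjective f) : Nat.card (ConjClasses H) ≤ Nat.card (ConjClasses G) :=
  Nat.card_le_card_of_surjective (ConjClasses.map f) (ConjClasses.map_surjective hf)

theorem k_le_ker_mul_range {G H : Type} [Group G] [Group H] [Finite G] (f : G →* H) :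
    Nat.card (ConjClasses G) ≤ Nat.card (ConjClasses f.ker) * Nat.card (ConjClasses f.range) := by
  refine (H24.card_conjClasses_le_mul f.ker).trans (Nat.mul_le_mul_left _ ?_)
  have : Finite f.range := Finite.of_surjective _ f.rangeRestrict_surjective
  exact k_le_of_surj (QuotientGroup.quotientKerEquivRange f).symm.toMonoidHom
    (QuotientGroup.quotientKerEquivRange f).symm.surjective

/-- The action of `G` on an invariant fibre. -/
noncomputable def fib {G X R : Type} [Group G] [MulAction G X] (π : X → R)
    (hπ : ∀ (g : G) (x : X), π (g • x) = π x) (a : R) : G →* Equiv.Perm {x : X // π x = a} where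
  toFun g := (MulAction.toPerm g).subtypePerm (fun x => by simp [hπ])
  map_one' := by
    ext x
    simp
  map_mul' g h := by
    ext x
    exact mul_smul g h x.1

theorem parts {X R : Type} [Fintype X] (π : X → R) (hs : Function.Surjective π)
    (H : ∀ (a : R) (S : Subgroup (Equiv.Perm {x : X // π x = a})), H68.Kc.Goal _ S)
    (T : Finset R) :
    ∀ (G : Type) [Group G] [Finite G] [MulAction G X], (∀ (g : G) (x : X), π (g • x) = π x) →
      (∀ g : G, (∀ x : X, π x ∈ T → g • x = x) → g = 1) →
      Nat.card (ConjClasses G) * 2 ^ T.card ≤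
        2 ^ (Finset.univ.filter (fun x : X => π x ∈ T)).card := by
  induction T using Finset.induction_on with
  | empty =>
    intro G _ _ _ _ hf
    have : Subsingleton G := ⟨fun a b => by rw [hf a (by simp), hf b (by simp)]⟩
    have h1 : Nat.card (ConjClasses G) ≤ Nat.card G :=
      Nat.card_le_card_of_surjective _ ConjClasses.mk_surjective
    have h2 : Nat.card G = 1 := Nat.card_unique
    simp only [Finset.card_empty, pow_zero, mul_one]
    exact (h1.trans h2.le).trans Nat.one_le_two_pow
  | insert a T ha ih =>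
    intro G _ _ _ hπ hf
    have h1 := k_le_ker_mul_range (fib π hπ a)
    have h2 := ih (fib π hπ a).ker (fun g x => hπ g x) (by
      intro g hg
      apply Subtype.ext
      apply hf
      intro x hx
      rcases Finset.mem_insert.mp hx with h | h
      · have := congrArg (fun e : Equiv.Perm {x : X // π x = a} => (e ⟨x, h⟩).1)
          (MonoidHom.mem_ker.mp g.2)
        simpa [fib] using this
      · exact hg x h)
    have h3 : Nat.card (ConjClasses (fib π hπ a).range) ≤
        2 ^ (Fintype.card {x : X // π x = a} - 1) := H a _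
    have h4 : 0 < Fintype.card {x : X // π x = a} := by
      obtain ⟨x, hx⟩ := hs a
      exact Fintype.card_pos_iff.mpr ⟨⟨x, hx⟩⟩
    have h5 : (Finset.univ.filter (fun x : X => π x ∈ insert a T)).card =
        (Finset.univ.filter (fun x : X => π x ∈ T)).card + Fintype.card {x : X // π x = a} := by
      rw [Fintype.card_subtype, ← Finset.card_union_of_disjoint]
      · congr 1
        ext x
        simp [or_comm]
      · rw [Finset.disjoint_filter]
        intro x _ hx h
        exact ha (h ▸ hx)
    obtain ⟨m, hm⟩ : ∃ m, Fintype.card {x : X // π x = a} = m + 1 := ⟨_, (Nat.succ_pred_eq_of_pos h4).symm⟩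
    rw [h5, Finset.card_insert_of_notMem ha, hm]
    rw [hm, Nat.add_sub_cancel] at h3
    calc Nat.card (ConjClasses G) * 2 ^ (T.card + 1)
        ≤ (Nat.card (ConjClasses (fib π hπ a).ker) * 2 ^ m) * 2 ^ (T.card + 1) :=
          Nat.mul_le_mul_right _ (h1.trans (Nat.mul_le_mul_left _ h3))
      _ = (Nat.card (ConjClasses (fib π hπ a).ker) * 2 ^ T.card) * 2 ^ (m + 1) := by ring
      _ ≤ 2 ^ (Finset.univ.filter (fun x : X => π x ∈ T)).card * 2 ^ (m + 1) :=
          Nat.mul_le_mul_right _ h2
      _ = _ := by ring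

theorem parts_univ {X R : Type} [Fintype X] [Fintype R] [Nontrivial R] (π : X → R)
    (hs : Function.Surjective π)
    (H : ∀ (Y : Type) [Fintype Y] (S : Subgroup (Equiv.Perm Y)),
      Fintype.card Y < Fintype.card X → H68.Kc.Goal Y S)
    (G : Type) [Group G] [Finite G] [MulAction G X] (hπ : ∀ (g : G) (x : X), π (g • x) = π x)
    (hf : ∀ g : G, (∀ x : X, g • x = x) → g = 1) :
    Nat.card (ConjClasses G) * 2 ^ Fintype.card R ≤ 2 ^ Fintype.card X := by
  have := parts π hs (fun a S => H _ S (by
    obtain ⟨b, hb⟩ := exists_ne a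
    obtain ⟨x, hx⟩ := hs b
    exact Fintype.card_subtype_lt (x := x) (by rw [hx]; exact hb))) Finset.univ G hπ
    (fun g hg => hf g (fun x => hg x (Finset.mem_univ _)))
  simpa using this

theorem le_of_mul_two {k n : ℕ} (hk : k * 2 ≤ 2 ^ n) : k ≤ 2 ^ (n - 1) := by
  rcases n with _ | n
  · simp at hk ⊢
    omega
  · rw [pow_succ] at hk
    simpa using hk

theorem jobRed : H68.Kc.JobRed := by
  intro hP
  suffices h : ∀ (n : ℕ) (X : Type) [Fintype X] (S : Subgroup (Equiv.Perm X)),
      Fintype.card X = n → H68.Kc.Goal X S from fun X _ S => h _ X S rfl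
  intro n
  induction n using Nat.strong_induction_on with
  | _ n ih =>
  intro X _ S hn
  have H : ∀ (Y : Type) [Fintype Y] (S : Subgroup (Equiv.Perm Y)),
      Fintype.card Y < Fintype.card X → H68.Kc.Goal Y S :=
    fun Y _ S' h => ih _ (hn ▸ h) Y S' rfl
  have hfS : ∀ g : S, (∀ x : X, g • x = x) → g = 1 := fun g hg =>
    Subtype.ext (Equiv.ext hg)
  by_cases hprim : MulAction.IsPreprimitive S X
  · exact hP X S hprim
  apply le_of_mul_two
  by_cases htr : MulAction.IsPretransitive S X
  · have hB : ∃ B : Set X, MulAction.IsBlock S B ∧ ¬ MulAction.IsTrivialBlock B := by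
      by_contra hc
      push Not at hc
      exact hprim { isTrivialBlock_of_isBlock := fun {B} hB => hc B hB }
    obtain ⟨B, hB, hnt⟩ := hB
    rw [MulAction.IsTrivialBlock, not_or, Set.not_subsingleton_iff] at hnt
    obtain ⟨⟨x₀, hx₀, y₀, hy₀, hxy⟩, hne⟩ := hnt
    have hex : ∀ x : X, ∃ C : MulAction.orbit S B, x ∈ (C : Set X) := by
      intro x
      obtain ⟨g, hg⟩ := htr.exists_smul_eq x₀ x
      exact ⟨⟨_, MulAction.mem_orbit B g⟩, hg ▸ Set.smul_mem_smul_set hx₀⟩
    have huniq : ∀ (x : X) (C D : MulAction.orbit S B), x ∈ (C : Set X) → x ∈ (D : Set X) →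
        C = D := by
      rintro x ⟨_, g, rfl⟩ ⟨_, h, rfl⟩ hC hD
      apply Subtype.ext
      exact (MulAction.isBlock_iff_smul_eq_smul_of_nonempty.mp hB) ⟨x, hC, hD⟩
    choose π hπ using hex
    have hs : Function.Surjective π := by
      rintro ⟨_, g, rfl⟩
      exact ⟨g • x₀, huniq _ _ _ (hπ _) (Set.smul_mem_smul_set hx₀)⟩
    have hequi : ∀ (g : S) (x : X), π (g • x) = g • π x := fun g x =>
      huniq _ _ _ (hπ _) (Set.smul_mem_smul_set (hπ x))
    let _ : Fintype (MulAction.orbit S B) := Fintype.ofFinite _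
    have hnt : Nontrivial (MulAction.orbit S B) := by
      obtain ⟨z, hz⟩ := (Set.ne_univ_iff_exists_notMem B).mp hne
      refine ⟨⟨π z, ⟨B, MulAction.mem_orbit_self B⟩, fun h => hz ?_⟩⟩
      have := hπ z
      rwa [h] at this
    have hlt : Fintype.card (MulAction.orbit S B) < Fintype.card X := by
      refine Fintype.card_lt_of_surjective_not_injective π hs (fun hi => hxy (hi ?_))
      exact (huniq x₀ _ ⟨B, MulAction.mem_orbit_self B⟩ (hπ _) hx₀).trans
        (huniq y₀ _ ⟨B, MulAction.mem_orbit_self B⟩ (hπ _) hy₀).symm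
    let f := MulAction.toPermHom S (MulAction.orbit S B)
    have h1 := k_le_ker_mul_range f
    have h2 := parts_univ π hs H f.ker (by
      intro g x
      have := congrArg (fun e : Equiv.Perm (MulAction.orbit S B) => e (π x))
        (MonoidHom.mem_ker.mp g.2)
      exact (hequi g x).trans this) (fun g hg => Subtype.ext (hfS g hg))
    have h3 : Nat.card (ConjClasses f.range) ≤ 2 ^ (Fintype.card (MulAction.orbit S B) - 1) :=
      H _ _ hlt
    obtain ⟨m, hm⟩ : ∃ m, Fintype.card (MulAction.orbit S B) = m + 1 :=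
      ⟨_, (Nat.succ_pred_eq_of_pos Fintype.card_pos).symm⟩
    rw [hm] at h2 h3
    rw [Nat.add_sub_cancel] at h3
    calc Nat.card (ConjClasses S) * 2 ≤ (Nat.card (ConjClasses f.ker) * 2 ^ m) * 2 :=
          Nat.mul_le_mul_right _ (h1.trans (Nat.mul_le_mul_left _ h3))
      _ = Nat.card (ConjClasses f.ker) * 2 ^ (m + 1) := by ring
      _ ≤ _ := h2
  · let _ : Fintype (MulAction.orbitRel.Quotient S X) := Fintype.ofFinite _
    have hnt : Nontrivial (MulAction.orbitRel.Quotient S X) := by
      by_contra hc
      rw [not_nontrivial_iff_subsingleton] at hc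
      exact htr ((MulAction.pretransitive_iff_subsingleton_quotient S X).mpr hc)
    have h2 := parts_univ (R := MulAction.orbitRel.Quotient S X) (fun x => Quotient.mk'' x)
      Quotient.mk''_surjective H S (fun g x => Quotient.sound' (MulAction.mem_orbit x g)) hfS
    refine le_trans (Nat.mul_le_mul_left _ ?_) h2
    calc 2 = 2 ^ 1 := rfl
      _ ≤ _ := Nat.pow_le_pow_right (by norm_num) Fintype.card_pos

end H87.KcRed
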