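import Cfsg.Agent.H91.AHSpec

/-! Tower AH, slot PP. -/

set_option autoImplicit false

namespace H87.AhPP

open H33.Solv Subgroup MulAction H91.AH

variable {G : Type} [Group G]

theorem comm_of_cop {g x : G} {m n : ℕ} (hm : Commute g (x ^ m)) (hn : Commute g (x ^ n))
    (hc : m.Coprime n) : Commute g x := by
  have h3 : x = (x ^ m) ^ Nat.gcdA m n * (x ^ n) ^ Nat.gcdB m n := by
    rw [← zpow_natCast, ← zpow_natCast, ← zpow_mul, ← zpow_mul, ← zpow_add, ← Nat.gcd_eq_gcd_ab, hc]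
    simp
  rw [h3]
  exact (hm.zpow_right _).mul_right (hn.zpow_right _)

theorem sq_dvd [Finite G] {p : ℕ} [hp : Fact p.Prime] (hG : IsPGroup p G) (h : p * p ∣ Nat.card G)
    (y : G) : p * p ∣ cc y := by
  have hnt : Nontrivial G := by
    rw [← Finite.one_lt_card_iff_nontrivial]
    exact lt_of_lt_of_le (by nlinarith [hp.out.two_le]) (Nat.le_of_dvd Nat.card_pos h)
  obtain ⟨k, hk⟩ := (hG.to_subgroup (centralizer ({y} : Set G))).exists_card_eq
  obtain ⟨j, hj0, hj⟩ := (hG.to_subgroup (center G)).nontrivial_iff_card.mp hG.center_nontrivial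
  by_cases h2 : 2 ≤ k
  · rw [cc, hk, ← pow_two]
    exact pow_dvd_pow p h2
  have h3 : center G = centralizer ({y} : Set G) :=
    eq_of_le_of_card_ge (center_le_centralizer _) (by
      rw [hk, hj]
      exact Nat.pow_le_pow_right hp.out.pos (by omega))
  have h4 : y ∈ center G := h3 ▸ mem_cent.mpr (Commute.refl y)
  rw [cc_congr (y := 1) (fun g => ⟨fun _ => Commute.one_right g, fun _ => mem_center_iff.mp h4 g⟩),
    cc_one]
  exact h

theorem exists_uy [Finite G] {p : ℕ} [hp : Fact p.Prime] {x : G} (h1 : p ∣ cc x)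
    (h2 : ¬ p * p ∣ cc x) : ∃ u y : G, orderOf u ∣ orderOf x ∧ (orderOf u).Coprime p ∧
      orderOf y = p ∧ Commute u y ∧ ¬ p * p ∣ cc u := by
  by_cases h : p ∣ orderOf x
  swap
  · obtain ⟨y, hy⟩ := exists_prime_orderOf_dvd_card' (G := centralizer ({x} : Set G)) p h1
    exact ⟨x, y, dvd_rfl, ((Nat.Prime.coprime_iff_not_dvd hp.out).mpr h).symm,
      by rw [orderOf_coe, hy], (mem_cent.mp y.2).symm, h2⟩
  obtain ⟨n, hn⟩ := h
  have hx0 := (orderOf_pos x).ne'
  have hn0 : n ≠ 0 := by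
    rintro rfl
    exact hx0 hn
  have hpn : p.Coprime n := (Nat.Prime.coprime_iff_not_dvd hp.out).mpr (fun h => h2
    (((mul_dvd_mul_left p h).trans hn.symm.dvd).trans (orderOf_dvd_cc (Commute.refl x))))
  have hu : orderOf (x ^ p) = n := by
    rw [orderOf_pow_of_dvd hp.out.ne_zero ⟨n, hn⟩, hn, Nat.mul_div_cancel_left _ hp.out.pos]
  have hy : orderOf (x ^ n) = p := by
    rw [orderOf_pow_of_dvd hn0 ⟨p, by rw [hn, mul_comm]⟩, hn,
      Nat.mul_div_cancel _ (Nat.pos_of_ne_zero hn0)]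
  refine ⟨x ^ p, x ^ n, orderOf_pow_dvd p, hu ▸ hpn.symm, hy, Commute.pow_pow_self x p n,
    fun h => h2 ?_⟩
  let y : centralizer ({x ^ p} : Set G) := ⟨x ^ n, mem_cent.mpr (Commute.pow_pow_self x n p)⟩
  have hyp : IsPGroup p (zpowers y) :=
    IsPGroup.of_card (n := 1) (by rw [Nat.card_zpowers, ← orderOf_coe, hy, pow_one])
  obtain ⟨P, hP⟩ := hyp.exists_le_sylow
  have h3 := sq_dvd P.isPGroup' (by
    rw [← pow_two]
    exact P.pow_dvd_card_of_pow_dvd_card (by rw [pow_two]; exact h)) ⟨y, hP (mem_zpowers y)⟩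
  refine h3.trans (card_dvd_of_injective (MonoidHom.codRestrict
    ((centralizer ({x ^ p} : Set G)).subtype.comp ((P : Subgroup _).subtype.comp
      (centralizer _).subtype)) _ (fun z => mem_cent.mpr ?_)) ?_)
  · refine comm_of_cop (mem_cent.mp z.1.1.2) ?_ hpn
    exact congrArg (fun t : (P : Subgroup (centralizer ({x ^ p} : Set G))) => t.1.1)
      (mem_cent.mp z.2).eq
  · intro a b hab
    have := congrArg Subtype.val hab
    exact Subtype.ext (Subtype.ext (Subtype.ext this))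

theorem conj_pow_pow {g y : G} (h : g * y * g⁻¹ = y ^ 2) (m : ℕ) :
    g ^ m * y * (g ^ m)⁻¹ = y ^ 2 ^ m := by
  induction m with
  | zero => simp
  | succ m ih =>
    rw [pow_succ' g, mul_inv_rev, mul_assoc g, mul_assoc g, ← mul_assoc (g ^ m * y), ih,
      ← mul_assoc, ← conj_pow, h, ← pow_mul, pow_succ' 2]

theorem cop_pow {c : G} {r k n : ℕ} (hc : c ^ r ^ k = 1) (hn : n.Coprime r) :
    n.Coprime (orderOf c) :=
  (hn.pow_right k).coprime_dvd_right (orderOf_dvd_of_pow_eq_one hc)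

theorem jobPP : H91.AH.JobPP := by
  intro hL hP1 hP2 G _ _ hs hR p r hpr x h1 h2
  have hp : p.Prime := by rcases hpr with ⟨rfl, -⟩ | ⟨rfl, -⟩ <;> norm_num
  have hr : r.Prime := by rcases hpr with ⟨-, rfl⟩ | ⟨-, rfl⟩ <;> norm_num
  have hne : p ≠ r := by omega
  have hp3 : p ≠ 3 := by omega
  have := Fact.mk hp
  obtain ⟨u, y, hux, hup, hy, huy, hu⟩ := exists_uy h1 h2
  obtain ⟨g0, e1, e2⟩ := hR.pair huy (hy ▸ hup) (Nat.coprime_one_left _) (b := 2)
    (hy ▸ (Nat.coprime_primes Nat.prime_two hp).mpr (by omega))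
  obtain ⟨m, j, hm, hj⟩ := exists_part hr g0 2
  have hgu : Commute (g0 ^ m) u :=
    Commute.pow_left (mul_inv_eq_iff_eq_mul.mp (e1.trans (pow_one u))) m
  have hgy : g0 ^ m * y * (g0 ^ m)⁻¹ = y ^ 2 := by
    rw [conj_pow_pow e2, pow_eq_pow_iff_modEq, hy, ← Nat.div_add_mod m (r ^ 2), hm]
    have h3 : 2 ^ r ^ 2 ≡ 1 [MOD p] ∧ 1 % r ^ 2 = 1 := by
      rcases hpr with ⟨rfl, rfl⟩ | ⟨rfl, rfl⟩ <;> decide
    rw [h3.2, pow_succ, pow_mul]
    have := (h3.1.pow (m / r ^ 2)).mul_right 2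
    rwa [one_pow, one_mul] at this
  set g := g0 ^ m
  refine ⟨?_, ?_⟩
  · by_contra hc
    have h3 : (orderOf u).Coprime r :=
      ((Nat.Prime.coprime_iff_not_dvd hr).mpr (fun h => hc (h.trans hux))).symm
    obtain ⟨t, ht1, ht2⟩ := hR.pair_inv hgu.symm (cop_pow hj h3)
    exact hp3 (hP1 (centralizer ({u} : Set G)) inferInstance p ⟨y, mem_cent.mpr huy.symm⟩
      ⟨g, mem_cent.mpr hgu⟩ ⟨t, mem_cent.mpr ht1⟩ hp hu (by rw [← orderOf_coe]; exact hy)
      (Subtype.ext hgy) (Subtype.ext ht2))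
  · rintro ⟨N, hN, hrN, hpN⟩
    obtain ⟨a, b, hb, hab⟩ := Nat.exists_eq_pow_mul_and_not_dvd (orderOf_pos u).ne' r hr.ne_one
    have hbr : b.Coprime r := ((Nat.Prime.coprime_iff_not_dvd hr).mpr hb).symm
    have hu' : (orderOf (u ^ r ^ a)).Coprime r := hbr.coprime_dvd_left
      (orderOf_dvd_of_pow_eq_one (by rw [← pow_mul, ← hab, pow_orderOf_eq_one]))
    refine hp3 (hP2 hL (centralizer ({u ^ r ^ a} : Set G)) inferInstance p r (N.subgroupOf _)
      ⟨y, mem_cent.mpr (huy.symm.pow_right _)⟩ ⟨g, mem_cent.mpr (hgu.pow_right _)⟩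
      ⟨u ^ b, mem_cent.mpr (Commute.pow_pow_self u _ _)⟩ hp hr hne inferInstance
      (fun h => hrN (h.trans (card_comap_dvd_of_injective N _ (subtype_injective _))))
      (hpN y 1 (by rw [pow_one, ← hy, pow_orderOf_eq_one])) (by rw [← orderOf_coe]; exact hy)
      (Subtype.ext hgy) (Subtype.ext (huy.pow_left b)) (Subtype.ext (hgu.symm.pow_left b))
      ⟨j, Subtype.ext hj⟩ ⟨a, Subtype.ext ?_⟩ (fun h => hu (h.trans ?_)) (fun c k hc => ?_))
    · change (u ^ b) ^ r ^ a = 1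
      rw [← pow_mul, mul_comm, ← hab, pow_orderOf_eq_one]
    · refine card_dvd_of_injective (MonoidHom.codRestrict
        ((centralizer ({u ^ r ^ a} : Set G)).subtype.comp (centralizer _).subtype) _
        (fun z => mem_cent.mpr ?_)) ?_
      · exact comm_of_cop (congrArg Subtype.val (mem_cent.mp z.2).eq) (mem_cent.mp z.1.2)
          (hbr.pow_right a)
      · intro a b hab
        have := congrArg Subtype.val hab
        exact Subtype.ext (Subtype.ext this)
    · obtain ⟨t, ht1, ht2⟩ := hR.pair_inv (mem_cent.mp c.2).symm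
        (cop_pow (congrArg Subtype.val hc) hu')
      exact isConj_iff.mpr ⟨⟨t, mem_cent.mpr ht1⟩, Subtype.ext ht2⟩

end H87.AhPP
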