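import Cfsg.Agent.H91.AHSpec

/-! Tower AH, slot QA. -/

set_option autoImplicit false

namespace H87.AhQA

open Subgroup QuaternionGroup

theorem fix_of_odd {X : Type} [Group X] [Finite X] {g : X} {j : ℕ} (hg : orderOf g = 2 ^ j)
    {σ : MulAut X} (hσ : Odd (orderOf σ)) (h : σ g ∈ zpowers g) : σ g = g := by
  obtain ⟨k, hk⟩ := (mem_powers_iff_mem_zpowers.mpr h : σ g ∈ Submonoid.powers g)
  change g ^ k = σ g at hk
  have h1 : ∀ m : ℕ, (σ ^ m) g = g ^ k ^ m := by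
    intro m
    induction m with
    | zero => simp
    | succ m ih => rw [pow_succ', MulAut.mul_apply, ih, map_pow, ← hk, ← pow_mul, pow_succ']
  have h2 : k.Coprime (orderOf g) := by
    have h3 : orderOf (g ^ k) = orderOf g := by rw [hk, σ.orderOf_eq]
    rw [orderOf_pow, Nat.div_eq_self] at h3
    exact Nat.Coprime.symm (h3.resolve_left (orderOf_pos g).ne')
  have h3 : σ ^ (orderOf g).totient ∈ MulAction.stabilizer (MulAut X) g := by
    change (σ ^ _) g = g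
    rw [h1, pow_eq_pow_iff_modEq.mpr (Nat.ModEq.pow_totient h2), pow_one]
  have h4 : (orderOf g).totient.Coprime (orderOf σ) := by
    have h5 : (2 : ℕ).Coprime (orderOf σ) := Nat.coprime_two_left.mpr hσ
    rw [hg]
    rcases j with _ | j
    · simp
    · rw [Nat.totient_prime_pow_succ Nat.prime_two]
      simpa using h5.pow_left j
  obtain ⟨m, hm⟩ := exists_pow_eq_self_of_coprime h4
  exact (hm ▸ pow_mem h3 m : σ ∈ MulAction.stabilizer (MulAut X) g)

theorem a_eq {N : ℕ} [NeZero N] (i : ZMod (2 * N)) : (a i : QuaternionGroup N) = a 1 ^ i.val := by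
  rw [a_one_pow, ZMod.natCast_zmod_val]

theorem xa_eq {N : ℕ} (i : ZMod (2 * N)) : (xa i : QuaternionGroup N) = xa 0 * a i := by
  rw [xa_mul_a, zero_add]

theorem key {n : ℕ} {σ : MulAut (QuaternionGroup (2 ^ n))} (hσ : Odd (orderOf σ))
    {i : ZMod (2 * 2 ^ n)} (h : σ (a 1) = a i) : σ = 1 := by
  have ho : orderOf (a 1 : QuaternionGroup (2 ^ n)) = 2 ^ (n + 1) := by
    rw [orderOf_a_one, pow_succ']
  have h1 : σ (a 1) = a 1 :=
    fix_of_odd ho hσ (by rw [h, a_eq i]; exact pow_mem (mem_zpowers _) _)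
  have h2 : ∀ i, σ (a i) = a i := fun i => by rw [a_eq i, map_pow, h1]
  obtain ⟨i, hi⟩ : ∃ i, σ (xa 0) = xa i := by
    rcases hx : σ (xa 0) with i | i
    · exact absurd (σ.injective (hx.trans (h2 i).symm)) (by simp)
    · exact ⟨i, rfl⟩
  have h3 : ∀ m : ℕ, (σ ^ m) (xa 0) = xa 0 * a i ^ m := by
    intro m
    induction m with
    | zero => simp
    | succ m ih =>
      rw [pow_succ', MulAut.mul_apply, ih, map_mul, map_pow, h2, hi, xa_eq i, mul_assoc,
        pow_succ' (a i)]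
  have h4 := h3 (orderOf σ)
  rw [pow_orderOf_eq_one, MulAut.one_apply, left_eq_mul] at h4
  have h5 : (a i : QuaternionGroup (2 ^ n)) ^ 2 ^ (n + 1) = 1 := by
    rw [a_eq i, ← pow_mul, mul_comm i.val, pow_mul, ← ho, pow_orderOf_eq_one, one_pow]
  have h6 : (a i : QuaternionGroup (2 ^ n)) = 1 := by
    rw [← orderOf_eq_one_iff]
    exact Nat.eq_one_of_dvd_coprimes ((Nat.coprime_two_left.mpr hσ).pow_left (n + 1))
      (orderOf_dvd_of_pow_eq_one h5) (orderOf_dvd_of_pow_eq_one h4)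
  ext x
  rcases x with j | j
  · exact h2 j
  · rw [xa_eq, map_mul, h2, hi, xa_eq i, h6, mul_one, MulAut.one_apply]

/-- The map with given values on the generators. -/
def ff (u v : QuaternionGroup 2) : QuaternionGroup 2 → QuaternionGroup 2
  | a i => u ^ i.val
  | xa i => v * u ^ i.val

theorem eq_ff (σ : MulAut (QuaternionGroup 2)) (x : QuaternionGroup 2) :
    σ x = ff (σ (a 1)) (σ (xa 0)) x := by
  rcases x with i | i
  · rw [a_eq, map_pow, ← a_eq, ff]
  · rw [xa_eq, map_mul, a_eq, map_pow, ← a_eq, ← xa_eq, ff]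

theorem q8 : {σ : MulAut (QuaternionGroup 2) | σ ≠ 1 ∧ Odd (orderOf σ)}.ncard ≤ 8 := by
  let T : Finset (QuaternionGroup 2 × QuaternionGroup 2) := Finset.univ.filter (fun z =>
    (∀ i, z.1 ≠ a i) ∧ (∀ i, ff z.1 z.2 z.1 ≠ a i) ∧ z.1 * z.2 ≠ z.2 * z.1)
  have hT : T.card = 8 := by decide +kernel
  rw [← hT, ← Set.ncard_coe_finset]
  refine Set.ncard_le_ncard_of_injOn (fun σ => (σ (a 1), σ (xa 0))) ?_ ?_
  · rintro σ ⟨h1, h2⟩
    refine Finset.mem_coe.mpr (Finset.mem_filter.mpr ⟨Finset.mem_univ _, fun i hi => ?_,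
      fun i hi => ?_, fun h => ?_⟩)
    · exact h1 (key (n := 1) h2 hi)
    · have h3 : σ ^ 2 = 1 := key (n := 1) (h2.of_dvd_nat (orderOf_pow_dvd 2))
        (i := i) (by rw [pow_two, MulAut.mul_apply]; exact (eq_ff σ _).trans hi)
      refine h1 (orderOf_eq_one_iff.mp (Nat.eq_one_of_dvd_coprimes (Nat.coprime_two_left.mpr h2)
        (orderOf_dvd_of_pow_eq_one h3) dvd_rfl))
    · simp only [← map_mul] at h
      exact absurd (σ.injective h) (by decide)
  · intro σ _ τ _ h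
    ext x
    rw [eq_ff σ, eq_ff τ, (Prod.mk.inj h).1, (Prod.mk.inj h).2]

theorem cyc {Q : Type} [Group Q] [Finite Q] (hQ : IsPGroup 2 Q) (hc : IsCyclic Q) :
    {σ : MulAut Q | σ ≠ 1 ∧ Odd (orderOf σ)}.ncard ≤ 8 := by
  obtain ⟨g, hg⟩ := IsCyclic.exists_generator (α := Q)
  obtain ⟨j, hj⟩ := IsPGroup.iff_orderOf.mp hQ g
  rw [Set.eq_empty_of_forall_notMem (s := {σ : MulAut Q | σ ≠ 1 ∧ Odd (orderOf σ)})
    (fun σ ⟨h1, h2⟩ => h1 ?_)]
  · simp
  · ext x
    obtain ⟨i, rfl⟩ := hg x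
    rw [map_zpow, fix_of_odd hj h2 (hg _), MulAut.one_apply]

theorem transfer {Q X : Type} [Group Q] [Group X] [Finite X] (e : Q ≃* X)
    (h : {σ : MulAut X | σ ≠ 1 ∧ Odd (orderOf σ)}.ncard ≤ 8) :
    {σ : MulAut Q | σ ≠ 1 ∧ Odd (orderOf σ)}.ncard ≤ 8 := by
  refine le_trans (Set.ncard_le_ncard_of_injOn (MulAut.congr e) ?_
    (MulAut.congr e).injective.injOn) h
  rintro σ ⟨h1, h2⟩
  exact ⟨fun h => h1 ((MulAut.congr e).map_eq_one_iff.mp h),
    by rwa [(MulAut.congr e).orderOf_eq]⟩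

theorem jobQA : H91.AH.JobQA := by
  rintro Q _ _ hQ (hc | ⟨n, ⟨e⟩⟩)
  · exact cyc hQ hc
  rcases n with _ | _ | n
  · exact cyc hQ ((e : Q ≃* QuaternionGroup 1).isCyclic.mpr quaternionGroup_one_isCyclic)
  · exact transfer (e : Q ≃* QuaternionGroup 2) q8
  refine transfer e ?_
  rw [Set.eq_empty_of_forall_notMem
    (s := {σ : MulAut (QuaternionGroup (2 ^ (n + 1 + 1))) | σ ≠ 1 ∧ Odd (orderOf σ)})
    (fun σ ⟨h1, h2⟩ => h1 ?_)]
  · simp
  · rcases hx : σ (a 1) with i | i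
    · exact key h2 hx
    · have := σ.orderOf_eq (a 1)
      rw [hx, orderOf_xa, orderOf_a_one, pow_succ, pow_succ] at this
      have h3 : 0 < 2 ^ n := Nat.two_pow_pos n
      omega

end H87.AhQA
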