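import Cfsg.Agent.H91.AHSpec

/-! AH tower: the top module (jobs TP1, TP2, TP3). -/

set_option autoImplicit false

namespace H87.AhTP

open H33.Solv H91.AH Subgroup MulAction
open scoped commutatorElement

variable {X : Type} [Group X] {p : ℕ} {V : Subgroup X}

theorem mon_comm (h : Mon p V) {a b : X} (ha : a ∈ V) (hb : b ∈ V) : a * b = b * a := by
  have : b ∈ centralizer (V : Set X) := by rw [h.cent]; exact hb
  exact this a ha

theorem mon_cop (h : Mon p V) : V.index.Coprime p :=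
  ((Nat.Prime.coprime_iff_not_dvd h.pr).2 h.cop).symm

theorem eq_one_of_cop {x : X} {a b : ℕ} (hab : a.Coprime b) (ha : x ^ a = 1) (hb : x ^ b = 1) :
    x = 1 := by
  have := Nat.dvd_gcd (orderOf_dvd_of_pow_eq_one ha) (orderOf_dvd_of_pow_eq_one hb)
  rw [hab.gcd_eq_one, Nat.dvd_one] at this
  exact orderOf_eq_one_iff.1 this

/-- The part of order prime to `p`. -/
theorem part [V.Normal] (h : Mon p V) (g : X) :
    ∃ m : ℕ, (g ^ m) ^ V.index = 1 ∧ ((g ^ m : X) : X ⧸ V) = (g : X ⧸ V) := by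
  obtain ⟨m, m1, m2⟩ := Nat.chineseRemainder (mon_cop h) 1 0
  refine ⟨m, ?_, ?_⟩
  · obtain ⟨c, rfl⟩ := Nat.modEq_zero_iff_dvd.1 m2
    rw [← pow_mul, show p * c * V.index = V.index * p * c by ring, pow_mul, pow_mul,
      h.ex _ (V.pow_index_mem g), one_pow]
  · rw [QuotientGroup.mk_pow]
    have : (g : X ⧸ V) ^ V.index = 1 := pow_card_eq_one'
    have e := pow_eq_pow_iff_modEq.2 (m1.of_dvd (orderOf_dvd_of_pow_eq_one this))
    rwa [pow_one] at e

theorem ord_eq [V.Normal] (h : Mon p V) {g : X} (hg : g ^ V.index = 1) :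
    orderOf g = orderOf (g : X ⧸ V) := by
  refine Nat.dvd_antisymm (orderOf_dvd_of_pow_eq_one ?_) (orderOf_map_dvd (QuotientGroup.mk' V) g)
  refine eq_one_of_cop (mon_cop h) (by rw [← pow_mul, mul_comm, pow_mul, hg, one_pow]) (h.ex _ ?_)
  rw [← QuotientGroup.eq_one_iff, QuotientGroup.mk_pow, pow_orderOf_eq_one]

theorem jobTP2 : JobTP2 := by
  intro X _ _ hs hr p V hV h
  have := Fact.mk h.pr
  obtain ⟨W, _, π, hπ⟩ := exists_sec (Z := ⊥) (N := V)
    (fun a ha b hb => commutatorElement_eq_one_iff_mul_comm.2 (mon_comm h ha hb))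
    (fun a _ z hz => by rw [mem_bot.1 hz]; simp)
  obtain ⟨_, hact⟩ := hπ.exists_act
  have hfin := hπ.finite
  have hW : Nat.card W = Nat.card V := by rw [hπ.card, relIndex_bot_left]
  have hinj : ∀ a ∈ V, ∀ b ∈ V, π a = π b → a = b := fun a ha b hb e =>
    inv_mul_eq_one.1 ((hπ.eq_iff ha hb).1 e)
  have hp0 : ∀ w : W, p • w = 0 := fun w => by
    obtain ⟨a, ha, rfl⟩ := hπ.surj w
    rw [← hπ.pow ha, h.ex a ha, hπ.one]
  have htr : ∀ v ∈ V, ∀ w : W, v • w = w := fun v hv w => by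
    obtain ⟨a, ha, rfl⟩ := hπ.surj w
    rw [hact v a ha, mon_comm h hv ha, mul_inv_cancel_right]
  have hout : ∀ (g : X) (w : W), (g : X ⧸ V).out • w = g • w := fun g w => by
    obtain ⟨v, hv⟩ := QuotientGroup.mk_out_eq_mul V g
    rw [hv, mul_smul, htr v v.2]
  let A : DistribMulAction (X ⧸ V) W :=
    { smul := fun q w => q.out • w
      one_smul := fun w => by
        change ((1 : X) : X ⧸ V).out • w = w
        rw [hout, one_smul]
      mul_smul := fun a b w => by
        obtain ⟨a, rfl⟩ := QuotientGroup.mk_surjective a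
        obtain ⟨b, rfl⟩ := QuotientGroup.mk_surjective b
        change ((a * b : X) : X ⧸ V).out • w = (a : X ⧸ V).out • (b : X ⧸ V).out • w
        rw [hout, hout, hout, mul_smul]
      smul_zero := fun q => smul_zero q.out
      smul_add := fun q => smul_add q.out }
  have hA : ∀ g : X, ∀ a ∈ V, (g : X ⧸ V) • π a = π (g * a * g⁻¹) := fun g a ha => by
    change (g : X ⧸ V).out • π a = _
    rw [hout, hact g a ha]
  let M : Module (ZMod p) W := AddCommGroup.zmodModule hp0
  refine ⟨W, inferInstance, hfin, M, A, π, ⟨hπ, hA⟩, hW, inferInstance, h.cop, ?_, ?_, ?_⟩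
  · rw [← Finite.one_lt_card_iff_nontrivial, hW]
    exact (one_lt_card_iff_ne_bot V).2 h.ne
  · intro q hq
    obtain ⟨g, rfl⟩ := QuotientGroup.mk_surjective q
    rw [QuotientGroup.eq_one_iff, ← h.cent]
    intro a ha
    have := hinj _ (hV.conj_mem a ha g) a ha ((hA g a ha).symm.trans (hq _))
    exact (mul_inv_eq_iff_eq_mul.1 this).symm
  · intro c v a k hc ha hk
    obtain ⟨g0, rfl⟩ := QuotientGroup.mk_surjective c
    obtain ⟨m, m1, m2⟩ := part h g0
    rw [← m2] at hc hk ⊢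
    generalize g0 ^ m = g at *
    obtain ⟨b, hb, rfl⟩ := hπ.surj v
    have hcm : Commute g b :=
      mul_inv_eq_iff_eq_mul.1 (hinj _ (hV.conj_mem b hb g) b hb ((hA g b hb).symm.trans hc))
    have hbp : orderOf b ∣ p := orderOf_dvd_of_pow_eq_one (h.ex b hb)
    have hav : a.val.Coprime p := by
      refine ((Nat.Prime.coprime_iff_not_dvd h.pr).2 fun hd => ha ?_).symm
      rw [← ZMod.natCast_zmod_val a, (ZMod.natCast_eq_zero_iff _ _).2 hd]
    obtain ⟨y, y1, y2⟩ := hr.pair hcm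
      (Nat.Coprime.coprime_dvd_right hbp
        (Nat.Coprime.coprime_dvd_left (orderOf_dvd_of_pow_eq_one m1) (mon_cop h)))
      (a := k) (b := a.val) (by rwa [ord_eq h m1]) (Nat.Coprime.coprime_dvd_right hbp hav)
    refine ⟨y, ?_, ?_⟩
    · rw [hA y b hb, y2, hπ.pow hb, ← Nat.cast_smul_eq_nsmul (ZMod p), ZMod.natCast_zmod_val]
    · rw [← QuotientGroup.mk_inv, ← QuotientGroup.mk_mul, ← QuotientGroup.mk_mul, y1,
        QuotientGroup.mk_pow]

end H87.AhTP
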