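/- S3275, chapter (1), slot UR2: the centraliser of the involution of `C(L)`. -/
import Cfsg.Agent.H48.DP1Spec

set_option autoImplicit false

namespace H87.DpUR2
open Subgroup Cfsg H98 H48.DP
open scoped commutatorElement

universe u

variable {G : Type u} [Group G]

theorem idx (h : Hyp G) (N : Subgroup G) : N.index ≠ 2 := by
  intro h2
  have := h.simple
  have hn : N.Normal := normal_of_index_eq_two h2
  rcases hn.eq_bot_or_eq_top with rfl | rfl
  · rw [index_bot] at h2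
    have : Fact (Nat.Prime 2) := ⟨Nat.prime_two⟩
    have : IsCyclic G := isCyclic_of_prime_card h2
    exact h.nc inferInstance
  · simp at h2

/-- the normaliser of `L` is `L C(L)` -/
theorem norm_split [Finite G] (act : Act.{u}) (hnd : ND G) {L : Subgroup G}
    (hq : IsQuasisimple L) (hU : IsU33 L) (hc : L ⊓ Ce L = ⊥) {g : G} (hg : g ∈ No L) :
    ∃ l ∈ L, ∃ k ∈ Ce L, g = l * k := by
  let e : ↥(L.subgroupOf (No L)) ≃* L := subgroupOfEquivOfLe le_normalizer
  have hcL : center L = ⊥ := by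
    have := map_subtype_center L
    rw [hc, map_eq_bot_iff_of_injective _ L.subtype_injective] at this
    exact this
  have hcK : center ↥(L.subgroupOf (No L)) = ⊥ := by
    rw [eq_bot_iff]
    intro c hc'
    have h1 : e c ∈ center L := by
      rw [mem_center_iff] at hc' ⊢
      intro d
      obtain ⟨d, rfl⟩ := e.surjective d
      rw [← map_mul, ← map_mul, hc']
    rw [hcL, mem_bot] at h1
    rw [mem_bot]
    exact e.injective (by rw [h1, map_one])
  let e1 : (↥(L.subgroupOf (No L)) ⧸ center ↥(L.subgroupOf (No L))) ≃* L :=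
    ((QuotientGroup.quotientMulEquivOfEq hcK).trans QuotientGroup.quotientBot).trans e
  let e2 : (L ⧸ center L) ≃* L :=
    (QuotientGroup.quotientMulEquivOfEq hcL).trans QuotientGroup.quotientBot
  have hcomp : IsComponent (L.subgroupOf (No L)) := by
    refine ⟨Normal.isSubnormal normal_in_normalizer, ?_, ?_⟩
    · have := hq.1
      exact Group.IsPerfect.ofSurjective (f := e.symm.toMonoidHom) e.symm.surjective
    · have := hq.2
      exact (e1.trans e2.symm).isSimpleGroup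
  have h3 : Three (↥(L.subgroupOf (No L)) ⧸ center ↥(L.subgroupOf (No L))) := by
    obtain ⟨F, i1, i2, h9, ⟨e3⟩⟩ := hU
    exact Or.inr (Or.inr ⟨F, i1, i2, h9, ⟨e1.trans e3⟩⟩)
  obtain ⟨l, hl, hk⟩ := (act (No L) (hnd.sub _) _ hcomp h3).2 ⟨g, hg⟩
    (by
      have := normal_in_normalizer (H := L)
      exact (normalizer_eq_top (H := L.subgroupOf (No L))).ge (mem_top _))
  refine ⟨l, hl, (l : G)⁻¹ * g, ?_, by group⟩
  rw [mem_centralizer_iff]
  intro d hd
  have := hk ⟨d, le_normalizer hd⟩ hd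
  exact congrArg Subtype.val this

/-- the involution of a cyclic group of exponent `4` -/
theorem exists_gen [Finite G] {R : Subgroup G} (hR : IsPGroup 2 R) (hc : IsCyclic R)
    (h4 : Nat.card R ≤ 4) (h1 : R ≠ ⊥) : ∃ r t : G, zpowers r = R ∧ r ^ 4 = 1 ∧
      (t = r ∨ t = r ^ 2) ∧ orderOf t = 2 ∧ ∀ k ∈ R, k * k = 1 → k ≠ 1 → k = t := by
  have : Fact (Nat.Prime 2) := ⟨Nat.prime_two⟩
  obtain ⟨r, hr⟩ := (Subgroup.isCyclic_iff_exists_zpowers_eq_top R).1 hc
  have hr1 : r ≠ 1 := fun h => h1 (by rw [← hr, h, zpowers_one_eq_bot])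
  have hr4 : r ^ 4 = 1 := by
    obtain ⟨n, hn⟩ := hR.exists_card_eq
    have hn2 : n ≤ 2 := by
      by_contra h
      have : 2 ^ 3 ≤ 2 ^ n := Nat.pow_le_pow_right (by omega) (by omega)
      omega
    apply orderOf_dvd_iff_pow_eq_one.1
    rw [← Nat.card_zpowers, hr, hn]
    exact pow_dvd_pow 2 hn2
  have hm : ∀ k ∈ R, k = 1 ∨ k = r ∨ k = r ^ 2 ∨ k = r ^ 3 := by
    intro k hk
    rw [← hr, ← mem_powers_iff_mem_zpowers] at hk
    obtain ⟨i, rfl⟩ := hk
    change r ^ i = 1 ∨ r ^ i = r ∨ r ^ i = r ^ 2 ∨ r ^ i = r ^ 3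
    rw [← Nat.div_add_mod i 4, pow_add, pow_mul, hr4, one_pow, one_mul]
    have : i % 4 < 4 := Nat.mod_lt _ (by omega)
    interval_cases i % 4 <;> simp
  by_cases h2 : r ^ 2 = 1
  · refine ⟨r, r, hr, hr4, Or.inl rfl, orderOf_eq_prime h2 hr1, fun k hk _ hk1 => ?_⟩
    rcases hm k hk with h | h | h | h
    · exact absurd h hk1
    · exact h
    · exact absurd (h.trans h2) hk1
    · rw [h, pow_succ, h2, one_mul]
  · refine ⟨r, r ^ 2, hr, hr4, Or.inr rfl, orderOf_eq_prime (by rw [← pow_mul, hr4]) h2,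
      fun k hk hkk hk1 => ?_⟩
    rcases hm k hk with h | h | h | h
    · exact absurd h hk1
    · exact absurd (by rw [pow_two, ← h, hkk]) h2
    · exact h
    · refine absurd ?_ h2
      rw [h, ← pow_add, show 3 + 3 = 4 + 2 from rfl, pow_add, hr4, one_mul] at hkk
      exact hkk

/-- a cyclic Sylow 2-subgroup and a trivial core -/
theorem eq_of_core [Finite G] {R C : Subgroup G} {t : G} (hS : IsSyl 2 R C) (hc : IsCyclic R)
    (ht : orderOf t = 2) (htC : t ∈ C) (hC : C ≤ C1 t)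
    (hn : ∀ g ∈ C1 t, ∃ k ∈ C, ∀ c ∈ C, g * c * g⁻¹ = k * c * k⁻¹)
    (ho : centralizerPPrimeCore 2 t = ⊥) : C = R := by
  have : Fact (Nat.Prime 2) := ⟨Nat.prime_two⟩
  obtain ⟨P, hP⟩ := hS.exists_sylow
  have hPc : IsCyclic P := by
    have e : ↥(R.subgroupOf C) ≃* R := subgroupOfEquivOfLe hS.le
    have : IsCyclic ↥(R.subgroupOf C) := isCyclic_of_surjective e.symm e.symm.surjective
    have e' : ↥(P : Subgroup C) ≃* ↥(R.subgroupOf C) := MulEquiv.subgroupCongr hP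
    exact isCyclic_of_surjective e'.symm e'.symm.surjective
  have h2 : 2 ∣ Nat.card C := by
    rw [← ht, ← orderOf_mk t htC]
    exact orderOf_dvd_natCard _
  have hmin : (Nat.card C).minFac = 2 := (Nat.minFac_eq_two_iff _).2 h2
  obtain ⟨O, hOn, hcomp⟩ : ∃ O : Subgroup C, O.Normal ∧ O.IsComplement' P :=
    ⟨_, inferInstance, IsCyclic.isComplement' hmin hPc⟩
  have hodd : ¬ 2 ∣ Nat.card O := by
    rw [← hcomp.index_eq_card]
    exact P.not_dvd_index
  have hle : O.map C.subtype ≤ C1 t := (map_subtype_le O).trans hC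
  have hN : ((O.map C.subtype).subgroupOf (C1 t)).Normal := by
    refine ⟨fun o ho g => ?_⟩
    rw [mem_subgroupOf] at ho ⊢
    obtain ⟨o', ho', h1⟩ := ho
    obtain ⟨k, hk, h3⟩ := hn g g.2
    refine ⟨⟨k, hk⟩ * o' * ⟨k, hk⟩⁻¹, hOn.conj_mem _ ho' _, ?_⟩
    have h4 : (o : G) = o' := h1.symm
    simp only [coe_subtype, coe_mul, InvMemClass.coe_inv, h4]
    exact (h3 o' o'.2).symm
  have hcard : Nat.card ((O.map C.subtype).subgroupOf (C1 t)) = Nat.card O := by
    rw [Nat.card_congr (subgroupOfEquivOfLe hle).toEquiv, card_map_of_injective C.subtype_injective]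
  have h5 : (O.map C.subtype).subgroupOf (C1 t) ≤ pPrimeCore 2 (C1 t) :=
    le_sSup ⟨hN, by
      rw [hcard]
      exact ((Nat.Prime.coprime_iff_not_dvd Nat.prime_two).2 hodd).symm⟩
  have h6 : O.map C.subtype ≤ ⊥ := by
    rw [← ho, ← map_subgroupOf_eq_of_le hle]
    exact map_mono h5
  have h7 : O = ⊥ := (map_eq_bot_iff_of_injective _ C.subtype_injective).1 (le_bot_iff.1 h6)
  have h8 : (P : Subgroup C) = ⊤ := by
    have := hcomp.sup_eq_top
    rwa [h7, bot_sup_eq] at this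
  rw [h8] at hP
  exact le_antisymm (subgroupOf_eq_top.1 hP.symm) hS.le

theorem jobUR2 : JobUR2.{u} := by
  intro act G _ _ hG hot L a b s x y hstd hU hm hur
  have : Fact (Nat.Prime 2) := ⟨Nat.prime_two⟩
  obtain ⟨hq, ⟨hev, htight⟩, -, hNN⟩ := hstd
  obtain ⟨R, hR⟩ := exists_isSyl 2 (Ce L)
  obtain ⟨hRc, hR4⟩ := hur.1 R hR
  have hR1 : R ≠ ⊥ := fun h => hR.eq_bot_iff.1 h hev.two_dvd
  obtain ⟨r, t, hr, hr4, htr, ht2, huniq⟩ := exists_gen hR.isPGroup hRc hR4 hR1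
  have hrR : r ∈ R := hr ▸ mem_zpowers r
  have htR : t ∈ R := by
    rcases htr with h | h <;> rw [h]
    · exact hrR
    · exact pow_mem hrR 2
  have htK : t ∈ Ce L := hR.le htR
  have ht1 : t ≠ 1 := fun h => by simp [h] at ht2
  have htt : t * t = 1 := by rw [← pow_two, ← ht2, pow_orderOf_eq_one]
  have hcL : ∀ {l k : G}, l ∈ L → k ∈ Ce L → l * k = k * l := fun hl hk => hk _ hl
  have hRt : R ≤ C1 t := by
    intro c hc
    rw [mem_centralizer_singleton_iff]
    rw [← hr] at hc htR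
    obtain ⟨i, rfl⟩ := hc
    obtain ⟨j, rfl⟩ := htR
    exact (Commute.zpow_zpow_self r i j).eq
  have hsplit : ∀ g : G, Commute g t → ∃ l ∈ L, ∃ k ∈ Ce L ⊓ C1 t, g = l * k := by
    intro g hg
    have h1 : g ∈ No L := by
      by_contra h
      have h2 := htight g (hNN ▸ h)
      have h3 : t ∈ Ce L ⊓ cj g (Ce L) := by
        refine ⟨htK, ?_⟩
        have := conj_mem_cj (g := g) htK
        rwa [hg.eq, mul_inv_cancel_right] at this
      have h4 : 2 ∣ Nat.card ↥(Ce L ⊓ cj g (Ce L)) := by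
        rw [← ht2, ← orderOf_mk t h3]
        exact orderOf_dvd_natCard _
      exact (Nat.not_even_iff_odd.2 h2) (even_iff_two_dvd.2 h4)
    obtain ⟨l, hl, k, hk, rfl⟩ := norm_split act hG.nd hq hU hm.cen h1
    refine ⟨l, hl, k, ⟨hk, ?_⟩, rfl⟩
    change k ∈ C1 t
    rw [mem_centralizer_singleton_iff]
    have h2 := hg.eq
    rw [mul_assoc, ← mul_assoc t, ← hcL hl htK, mul_assoc] at h2
    exact mul_left_cancel h2
  have hCR : Ce L ⊓ C1 t = R := by
    refine eq_of_core (hR.of_le (le_inf hR.le hRt) inf_le_left) hRc ht2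
      ⟨htK, hRt htR⟩ inf_le_right (fun g hg => ?_) (hot t ht2)
    obtain ⟨l, hl, k, hk, rfl⟩ := hsplit g (mem_centralizer_singleton_iff.1 hg)
    refine ⟨k, hk, fun c hc => ?_⟩
    have h1 : k * c * k⁻¹ ∈ Ce L := mul_mem (mul_mem hk.1 hc.1) (inv_mem hk.1)
    calc l * k * c * (l * k)⁻¹ = l * (k * c * k⁻¹) * l⁻¹ := by group
      _ = k * c * k⁻¹ := by rw [hcL hl h1, mul_inv_cancel_right]
  have hct : ∀ g : G, Commute g t → ∃ l ∈ L, ∃ k ∈ zpowers r, g = l * k := fun g hg => by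
    rw [hr, ← hCR]; exact hsplit g hg
  have hab : Commute a b := hm.ab
  have hs1 : s⁻¹ = s := inv_eq_of_mul_eq_one_right hm.s2
  have hsb : s * b * s⁻¹ = a := by
    rw [← hm.sa, hs1]
    calc s * (s * a * s) * s = (s * s) * a * (s * s) := by group
      _ = a := by rw [hm.s2, one_mul, mul_one]
  have hsa2 : s * a ^ 2 * s⁻¹ = b ^ 2 := by rw [← hm.sa, conj_pow]
  have hsb2 : s * b ^ 2 * s⁻¹ = a ^ 2 := by rw [← hsb, conj_pow]
  have hb2 : (b ^ 2)⁻¹ = b ^ 2 := by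
    apply inv_eq_of_mul_eq_one_right
    rw [← pow_add]; exact hm.b4
  have hz : ⁅a ^ 2, s⁆ = a ^ 2 * b ^ 2 := by
    rw [commutatorElement_def, ← hb2, ← hsa2]; group
  have haz : Commute (a ^ 2) (a ^ 2 * b ^ 2) :=
    (Commute.refl _).mul_right (hab.pow_pow 2 2)
  have hsz : Commute s (a ^ 2 * b ^ 2) := by
    have h1 : s * (a ^ 2 * b ^ 2) * s⁻¹ = a ^ 2 * b ^ 2 := by
      calc s * (a ^ 2 * b ^ 2) * s⁻¹ = (s * a ^ 2 * s⁻¹) * (s * b ^ 2 * s⁻¹) := by group
        _ = a ^ 2 * b ^ 2 := by rw [hsa2, hsb2, (hab.pow_pow 2 2).eq]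
    exact mul_inv_eq_iff_eq_mul.1 h1
  have hoc : ∀ g w : G, orderOf (g * w * g⁻¹) = orderOf w := fun g w =>
    (MulAut.conj g).orderOf_eq w
  have hnz : ∀ g : G, g * t * g⁻¹ ∉ L := by
    intro g hg
    obtain ⟨c, -, hc⟩ := hm.one _ hg ((hoc g t).trans ht2)
    have h0 : t = (c * g)⁻¹ * (a ^ 2 * b ^ 2) * (c * g) := by rw [← hc]; group
    have hcm : ∀ w : G, Commute w (a ^ 2 * b ^ 2) → Commute ((c * g)⁻¹ * w * (c * g)) t := by
      intro w hw
      rw [h0]
      calc (c * g)⁻¹ * w * (c * g) * ((c * g)⁻¹ * (a ^ 2 * b ^ 2) * (c * g))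
          = (c * g)⁻¹ * (w * (a ^ 2 * b ^ 2)) * (c * g) := by group
        _ = (c * g)⁻¹ * (a ^ 2 * b ^ 2) * (c * g) * ((c * g)⁻¹ * w * (c * g)) := by
          rw [hw.eq]; group
    obtain ⟨l, hl, k, hk, h1⟩ := hct _ (hcm _ haz)
    obtain ⟨l', hl', k', hk', h2⟩ := hct _ (hcm _ hsz)
    have hkk : k * k' = k' * k := by
      obtain ⟨i, rfl⟩ := hk
      obtain ⟨j, rfl⟩ := hk'
      exact (Commute.zpow_zpow_self r i j).eq
    have hkK : k ∈ Ce L := hR.le (hr ▸ hk)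
    have hkK' : k' ∈ Ce L := hR.le (hr ▸ hk')
    have h3 : t = ⁅l * k, l' * k'⁆ := by
      rw [← h1, ← h2, h0, ← hz, commutatorElement_def, commutatorElement_def]; group
    have h4 : l * k * (l' * k') = l * l' * (k * k') := by
      rw [mul_assoc, ← mul_assoc k, ← hcL hl' hkK]; group
    have h5 : l' * k' * (l * k) = l' * l * (k * k') := by
      rw [mul_assoc, ← mul_assoc k', ← hcL hl hkK', hkk]; group
    have h6 : t = l * l' * (l' * l)⁻¹ := by
      calc t = l * k * (l' * k') * (l' * k' * (l * k))⁻¹ := by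
            rw [h3, commutatorElement_def]; group
        _ = l * l' * (l' * l)⁻¹ := by rw [h4, h5]; group
    have h8 : t ∈ L := by
      rw [h6]; exact mul_mem (mul_mem hl hl') (inv_mem (mul_mem hl' hl))
    have h7 : t ∈ L ⊓ Ce L := ⟨h8, htK⟩
    rw [hm.cen, mem_bot] at h7
    exact ht1 h7
  have hinv : ∀ k ∈ Ce L, k * k = 1 → k ≠ 1 → ∃ n ∈ Ce L, n * k * n⁻¹ = t := by
    intro k hk hkk hk1
    obtain ⟨n, hn, h1⟩ := hR.exists_cj_le (Q := zpowers k)
      (isPGroup_zpowers (k := 1) (by rw [pow_one, pow_two, hkk])) (zpowers_le.2 hk)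
    refine ⟨n, hn, huniq _ (h1 (conj_mem_cj (mem_zpowers k))) ?_ ?_⟩
    · calc n * k * n⁻¹ * (n * k * n⁻¹) = n * (k * k) * n⁻¹ := by group
        _ = 1 := by rw [hkk]; group
    · intro h
      exact hk1 (by simpa [mul_inv_eq_iff_eq_mul] using h)
  refine ⟨r, t, hm, idx hG, hR.le hrR, hr4, htr, ht2, hct, hnz, ?_⟩
  obtain ⟨g, l, hl, k, hk, hl1, hll, hkk, hlk⟩ := hur.2
  rw [mem_cj] at hlk
  have h1 : l * k ≠ 1 := by
    intro h
    have h3 : l ∈ Ce L := by
      rw [eq_inv_of_mul_eq_one_left h]; exact inv_mem hk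
    have h2 : l ∈ L ⊓ Ce L := ⟨hl, h3⟩
    rw [hm.cen, mem_bot] at h2
    exact hl1 h2
  have h2 : l * k * (l * k) = 1 := by
    calc l * k * (l * k) = l * (k * l) * k := by group
      _ = (l * l) * (k * k) := by rw [← hcL hl hk]; group
      _ = 1 := by rw [hll, hkk, one_mul]
  obtain ⟨m, -, hm1⟩ := hinv _ hlk (by
    calc g⁻¹ * (l * k) * g * (g⁻¹ * (l * k) * g) = g⁻¹ * (l * k * (l * k)) * g := by group
      _ = 1 := by rw [h2]; group) (fun h => h1 (by
    calc l * k = g * (g⁻¹ * (l * k) * g) * g⁻¹ := by group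
      _ = 1 := by rw [h]; group))
  have h3 : g * m⁻¹ * t * (g * m⁻¹)⁻¹ = l * k := by rw [← hm1]; group
  have hk1 : k ≠ 1 := by
    rintro rfl
    exact hnz (g * m⁻¹) (by rw [h3, mul_one]; exact hl)
  obtain ⟨n, hn, hn1⟩ := hinv k hk hkk hk1
  obtain ⟨c, hc, hc1⟩ := hm.one l hl (orderOf_eq_prime (by rw [pow_two, hll]) hl1)
  refine ⟨c * n * (g * m⁻¹), ?_⟩
  calc c * n * (g * m⁻¹) * t * (c * n * (g * m⁻¹))⁻¹
      = c * (n * (g * m⁻¹ * t * (g * m⁻¹)⁻¹) * n⁻¹) * c⁻¹ := by group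
    _ = c * (n * l * k * n⁻¹) * c⁻¹ := by rw [h3]; group
    _ = c * (l * t) * c⁻¹ := by rw [← hcL hl hn, ← hn1]; group
    _ = c * t * l * c⁻¹ := by rw [hcL hl htK]; group
    _ = t * (a ^ 2 * b ^ 2) := by rw [hcL hc htK, ← hc1]; group

end H87.DpUR2
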