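/- E7MAX (S5934), slots COL and CRIT: the root involutions inside `Q`. -/
import Cfsg.Agent.H36.E7MSpec

set_option autoImplicit false

namespace H87.E7Col
open H36.E7M Cfsg.Lie Module
open scoped commutatorElement

/-- witnesses `s` of level `1` for the roots of level `0` -/
def ws : List ℕ := [108, 107, 106, 105, 104, 103, 102, 101, 100, 99, 102, 101, 100, 99, 99, 98, 97,
  96, 95, 94, 98, 97, 96, 95, 98, 97, 96, 98, 97, 98, 97, 96, 96, 95, 95, 95, 94, 94, 94, 94, 93,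
  93, 93, 93, 93, 95, 94, 94, 94, 94, 93, 93, 93, 93, 93, 93, 93, 93, 93, 93]
/-- the sums -/
def wt : List ℕ := [93, 93, 93, 93, 93, 93, 93, 93, 93, 93, 94, 94, 94, 94, 95, 93, 93, 93, 93, 93,
  94, 94, 94, 94, 95, 95, 95, 96, 96, 97, 98, 97, 98, 96, 97, 98, 95, 96, 97, 98, 94, 95, 96, 97,
  98, 99, 99, 100, 101, 102, 99, 100, 101, 102, 103, 104, 105, 106, 107, 108]

theorem sm_low : ∀ k < 32, Sm (k + 1) 125 (k + 93) := by decide +kernel

theorem sm_zero : ∀ k < 60, 93 ≤ ws.getD k 0 ∧ ws.getD k 0 < 125 ∧ wt.getD k 0 < 125 ∧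
    Sm (k + 33) (ws.getD k 0) (wt.getD k 0) := by decide +kernel

/-- the root elements of level `≤ 0` are outside `Q` -/
theorem x_not_mem (hsq : JobSQ) (hcm : JobCM) (hlq : JobLQ) {r : ℕ} (hr : r ≤ 92) : x r ∉ Q := by
  intro hQ
  obtain ⟨hxx, hinj, hne, hbr⟩ := hsq
  obtain ⟨-, -, hz, hc⟩ := hlq
  rcases Nat.eq_zero_or_pos r with rfl | hpos
  · have hc' : Commute y z := hz _ hQ
    have hzz : z * z = 1 := hxx 125
    have hyy : y * y = 1 := hxx 0
    have h1 : z * y * z = y := by rw [← hc'.eq, mul_assoc, hzz, mul_one]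
    have h2 : y * z * y = z := by rw [hc'.eq, mul_assoc, hyy, mul_one]
    have h3 : x 0 = x 125 := by
      change y = z
      rw [← h1, hbr, h2]
    have := hinj 0 (by omega) 125 (by omega) h3
    omega
  · by_cases h32 : r ≤ 32
    · obtain ⟨k, rfl⟩ : ∃ k, r = k + 1 := ⟨r - 1, by omega⟩
      have h1 := (hcm (k + 1) (by omega) 125 (by omega)).1 (k + 93) (by omega)
        (sm_low k (by omega))
      have h2 : ⁅x (k + 1), x 125⁆ = 1 :=
        commutatorElement_eq_one_iff_commute.2 (hz _ hQ)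
      exact hne (k + 93) (by omega) (h1 ▸ h2)
    · obtain ⟨k, rfl⟩ : ∃ k, r = k + 33 := ⟨r - 33, by omega⟩
      obtain ⟨h1, h2, h3, h4⟩ := sm_zero k (by omega)
      have h5 := (hcm (k + 33) (by omega) _ (by omega)).1 _ (by omega) h4
      rcases hc _ hQ _ (x_mem_Q h1 (by omega)) with h6 | h6
      · exact hne _ (by omega) (h5 ▸ h6)
      · have h7 : x (wt.getD k 0) = x 125 := h5 ▸ h6
        have := hinj _ (by omega) 125 (by omega) h7
        omega

theorem jobCOL : JobSQ → JobCM → JobLQ → JobCZ → JobR5 → JobCOL := by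
  intro hsq hcm hlq hcz hr5 a ha haQ haz
  obtain ⟨g, rfl⟩ := ha
  obtain ⟨u, r, hr, hu, he⟩ := hr5 g
  obtain ⟨l, hl, q, hq, rfl⟩ := hcz u hu
  rw [he] at haQ haz ⊢
  rw [← cj_cj] at haQ haz ⊢
  have h1 : cj q (x r) ∈ Q := by
    have := hlq.1 l⁻¹ (inv_mem hl) _ haQ
    rwa [cj_inv_cj] at this
  have h2 : x r ∈ Q := by
    have := cj_mem (inv_mem hq) h1
    rwa [cj_inv_cj] at this
  have h3 : 93 ≤ r := by
    by_contra h
    exact x_not_mem hsq hcm hlq (by omega) h2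
  have h4 : r ≤ 124 := by
    by_contra h
    have : r = 125 := by omega
    subst this
    apply haz
    change cj l (cj q z) = z
    rw [cj_eq_iff.2 (hlq.2.2.1 q hq), cj_eq_iff.2 (hlq.2.1 l hl).1]
  refine ⟨l, hl, r, h3, h4, ?_⟩
  have h5 : cj q (x r) = ⁅q, x r⁆ * x r := by
    simp [cj, commutatorElement_def, mul_assoc]
  rcases hlq.2.2.2 q hq _ h2 with h6 | h6
  · left; rw [h5, h6, one_mul]
  · right; rw [h5, h6, (hlq.2.2.1 _ h2).eq]

theorem ix_inj {r s : Fin 126} (h : ix r = ix s) : r = s := Sum.inr_injective h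

theorem ih_inj {i j : Fin 7} (h : ih i = ih j) : i = j := Sum.inl_injective h

theorem ix_ne_ih (r : Fin 126) (i : Fin 7) : ix r ≠ ih i := Sum.inr_ne_inl

theorem eb_ix_ne {r s : Fin 126} (h : s ≠ r) : eb r (ix s) = 0 :=
  Pi.single_eq_of_ne (fun h' => h (ix_inj h')) _

theorem eb_ih (r : Fin 126) (i : Fin 7) : eb r (ih i) = 0 :=
  Pi.single_eq_of_ne (fun h' => ix_ne_ih r i h'.symm) _

theorem gr_eb (r : Fin 126) : Gr (lev r) (eb r) :=
  ⟨fun s hs => eb_ix_ne (fun h => hs (by rw [h])), fun _ i => eb_ih r i⟩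

theorem hT_ix (r : Fin 126) : hT (ix r) = 0 := by
  simp only [hT, Pi.add_apply]
  rw [Pi.single_eq_of_ne (ix_ne_ih r 2), Pi.single_eq_of_ne (ix_ne_ih r 4),
    Pi.single_eq_of_ne (ix_ne_ih r 6)]
  simp

theorem single_ih (i j : Fin 7) :
    (Pi.single (ih j) (1 : F) : LA) (ih i) = if i = j then 1 else 0 := by
  split_ifs with h
  · subst h; simp
  · exact Pi.single_eq_of_ne (fun h' => h (ih_inj h')) _

theorem hT_ih (i : Fin 7) : hT (ih i) = ![0, 0, 1, 0, 1, 0, 1] i := by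
  simp only [hT, Pi.add_apply, single_ih]
  revert i
  decide

theorem ρ_cj (l a : G) (v : LA) : ρ (cj l a) v = ρ l (ρ a (ρ l⁻¹ v)) := by
  rw [cj, map_mul, map_mul]; rfl

theorem lev_lo (i : Fin 32) : lev (lo i) = -1 := by
  have := lev_cases (lo i)
  have h : ((lo i : Fin 126) : ℕ) = i + 1 := rfl
  have := i.2
  omega

theorem jobCRIT : JobCOL → JobFIL → JobCRIT := by
  intro hcol hfil a ha haQ haz
  obtain ⟨l, hl, r, h1, h2, he⟩ := hcol a ha haQ haz
  obtain ⟨-, hL, hfix, -, hx⟩ := hfil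
  obtain ⟨i, rfl⟩ : ∃ i : Fin 32, r = 93 + i := ⟨⟨r - 93, by omega⟩, by simp; omega⟩
  have hg : Gr (-1) (ρ l (eb (lo i))) := (hL l hl (-1) _).1 (lev_lo i ▸ gr_eb (lo i))
  have h0 : ρ l⁻¹ (eb 0) = eb 0 := (hfix _ (inv_mem hl)).1
  have hlev : ∀ s : Fin 126, 33 ≤ (s : ℕ) → (s : ℕ) ≤ 92 → lev s = 0 := fun s h3 h4 => by
    have := lev_cases s; omega
  have hne : ∀ s : Fin 126, 33 ≤ (s : ℕ) → s ≠ 0 := fun s h3 h4 => by
    rw [h4] at h3; simp at h3
  rcases he with rfl | rfl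
  · rw [ρ_cj, h0, (hx i).1, map_add, (hfix l hl).1]
    refine ⟨fun s h3 h4 => ?_, Or.inl fun j => ?_⟩
    · rw [Pi.add_apply, eb_ix_ne (hne s h3), hg.1 s (by rw [hlev s h3 h4]; omega), add_zero]
    · rw [Pi.add_apply, eb_ih, hg.2 (by omega), add_zero]
  · have h5 : Fil 1 (ρ l (ρ (x (93 + i) * z) (eb 0) - (eb 0 + eb (lo i) + hT))) :=
      (hL l hl 1 _).2 (hx i).2
    have h6 : ρ l (ρ (x (93 + i) * z) (eb 0)) = eb 0 + ρ l (eb (lo i)) + hT +
        ρ l (ρ (x (93 + i) * z) (eb 0) - (eb 0 + eb (lo i) + hT)) := by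
      rw [map_sub, map_add, map_add, (hfix l hl).1, (hfix l hl).2.2]
      abel
    rw [ρ_cj, h0, h6]
    refine ⟨fun s h3 h4 => ?_, Or.inr fun j => ?_⟩
    · rw [Pi.add_apply, Pi.add_apply, Pi.add_apply, eb_ix_ne (hne s h3),
        hg.1 s (by rw [hlev s h3 h4]; omega), hT_ix, h5.1 s (by rw [hlev s h3 h4]; omega)]
      simp
    · rw [Pi.add_apply, Pi.add_apply, Pi.add_apply, eb_ih, hg.2 (by omega), hT_ih,
        h5.2 (by omega)]
      simp

end H87.E7Col
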