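import Cfsg.Agent.H40.E8GSpec

/-! Tower E8G, slot Part: the partition formula for fixed spaces. -/

set_option autoImplicit false

namespace H87.E8Part

open Matrix Module H40.E8G H40.E8F H14.E8 Cfsg.Lie H63 H64 H65

universe u

variable {p N : ℕ} [hp : Fact p.Prime]

/-- The reduction map. -/
abbrev rd (p N : ℕ) : ZMod (p ^ (N + 1)) →+* ZMod p :=
  ZMod.castHom (dvd_pow_self p (Nat.succ_ne_zero N)) (ZMod p)

theorem rd_surj : Function.Surjective (rd p N) := ZMod.ringHom_surjective _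

theorem rd_zero {x : ZMod (p ^ (N + 1))} (h : rd p N x = 0) :
    ∃ y, x = (p : ZMod (p ^ (N + 1))) * y := by
  have : NeZero (p ^ (N + 1)) := ⟨pow_ne_zero _ hp.out.ne_zero⟩
  obtain ⟨a, rfl⟩ := ZMod.natCast_zmod_surjective x
  rw [map_natCast, ZMod.natCast_eq_zero_iff] at h
  obtain ⟨b, rfl⟩ := h
  exact ⟨b, by push_cast; rfl⟩

theorem pw_zero : (p : ZMod (p ^ (N + 1))) ^ (N + 1) = 0 := by
  rw [← Nat.cast_pow, ZMod.natCast_self]

variable {n : Type} [Fintype n] [DecidableEq n]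

omit [Fintype n] [DecidableEq n] in
theorem exists_smul {m : Type} {A : Matrix n m (ZMod (p ^ (N + 1)))} (h : A.map (rd p N) = 0) :
    ∃ B, A = (p : ZMod (p ^ (N + 1))) • B := by
  choose B hB using fun i j => rd_zero (x := A i j) (congrFun (congrFun h i) j)
  exact ⟨Matrix.of B, Matrix.ext fun i j => hB i j⟩

omit [Fintype n] [DecidableEq n] in
theorem exists_lift {m : Type} (A : Matrix n m (ZMod p)) :
    ∃ B : Matrix n m (ZMod (p ^ (N + 1))), B.map (rd p N) = A := by
  choose B hB using fun i j => rd_surj (N := N) (A i j)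
  exact ⟨Matrix.of B, Matrix.ext fun i j => hB i j⟩

theorem nil {A : Matrix n n (ZMod (p ^ (N + 1)))} (h : A.map (rd p N) = 0) : A ^ (N + 1) = 0 := by
  obtain ⟨B, rfl⟩ := exists_smul h
  rw [smul_pow, pw_zero, zero_smul]

theorem sub_one_map {A : Matrix n n (ZMod (p ^ (N + 1)))} (h : A.map (rd p N) = 1) :
    (A - 1).map (rd p N) = 0 := by
  rw [Matrix.map_sub _ (map_sub _), h, Matrix.map_one _ (map_zero _) (map_one _), sub_self]

theorem unit_of {A : Matrix n n (ZMod (p ^ (N + 1)))} (h : A.map (rd p N) = 1) : IsUnit A := by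
  have := IsNilpotent.isUnit_one_add ⟨_, nil (sub_one_map h)⟩
  rwa [add_sub_cancel] at this

theorem pow_eq {A : Matrix n n (ZMod (p ^ (N + 1)))} (h : A.map (rd p N) = 1) : A ^ p ^ N = 1 := by
  obtain ⟨B, hB⟩ := exists_smul (sub_one_map h)
  have h1 := dvd_sub_pow_of_dvd_sub (R := Polynomial (ZMod (p ^ (N + 1)))) (p := p)
    (a := 1 + (p : Polynomial (ZMod (p ^ (N + 1)))) * Polynomial.X) (b := 1) (by simp) N
  have h2 : (p : Polynomial (ZMod (p ^ (N + 1)))) ^ (N + 1) = 0 := by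
    rw [← map_natCast Polynomial.C, ← map_pow, pw_zero, map_zero]
  rw [h2, zero_dvd_iff, one_pow, sub_eq_zero] at h1
  have h3 := congrArg (Polynomial.aeval B) h1
  rw [map_pow, map_add, map_one, map_mul, map_natCast, Polynomial.aeval_X, ← nsmul_eq_mul,
    ← Nat.cast_smul_eq_nsmul (ZMod (p ^ (N + 1))), ← hB, add_sub_cancel] at h3
  exact h3

theorem factor {F : Type} [Field F] {e : Matrix n n F} (he : e * e = e) :
    ∃ (d : ℕ) (a : Matrix n (Fin d) F) (b : Matrix (Fin d) n F), a * b = e ∧ b * a = 1 := by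
  let f := Matrix.toLin' e
  let w := Module.finBasis F (LinearMap.range f)
  refine ⟨_, LinearMap.toMatrix w (Pi.basisFun F n) (LinearMap.range f).subtype,
    LinearMap.toMatrix (Pi.basisFun F n) w f.rangeRestrict, ?_, ?_⟩
  · rw [← LinearMap.toMatrix_comp, LinearMap.toMatrix_eq_toMatrix']
    exact LinearMap.toMatrix'_toLin' e
  · rw [← LinearMap.toMatrix_comp, ← LinearMap.toMatrix_id w]
    congr 1
    ext ⟨_, v, rfl⟩ : 1
    apply Subtype.ext
    change f (f v) = f v
    rw [← LinearMap.comp_apply, ← Matrix.toLin'_mul, he]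

theorem trace_idem {e : Matrix n n (ZMod (p ^ (N + 1)))} (he : e * e = e) {k : Type} [Field k]
    (j : ZMod p →+* k) : e.trace = (((e.map (rd p N)).map j).rank : ℕ) := by
  have he' : e.map (rd p N) * e.map (rd p N) = e.map (rd p N) := by rw [← Matrix.map_mul, he]
  obtain ⟨d, a, b, hab, hba⟩ := factor he'
  have hr : ((e.map (rd p N)).map j).rank = d := by
    rw [← hab, Matrix.map_mul]
    refine le_antisymm ((Matrix.rank_mul_le_left _ _).trans
      ((Matrix.rank_le_card_width _).trans (Fintype.card_fin d).le)) ?_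
    have h1 : b.map j * (a.map j * b.map j * a.map j) = 1 := by
      rw [← Matrix.map_mul, ← Matrix.map_mul, ← Matrix.map_mul, Matrix.mul_assoc a, hba,
        Matrix.mul_one, hba, Matrix.map_one _ (map_zero _) (map_one _)]
    calc d = (1 : Matrix (Fin d) (Fin d) k).rank := by rw [Matrix.rank_one, Fintype.card_fin]
      _ ≤ (a.map j * b.map j * a.map j).rank := h1 ▸ Matrix.rank_mul_le_right _ _
      _ ≤ _ := Matrix.rank_mul_le_left _ _
  obtain ⟨a', ha⟩ := exists_lift (N := N) a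
  obtain ⟨b', hb⟩ := exists_lift (N := N) b
  have hc : (b' * e * a').map (rd p N) = 1 := by
    rw [Matrix.map_mul, Matrix.map_mul, ha, hb, ← hab, ← Matrix.mul_assoc, hba, Matrix.one_mul, hba]
  obtain ⟨c, hc'⟩ := unit_of hc
  have hci : (↑c⁻¹ : Matrix (Fin d) (Fin d) (ZMod (p ^ (N + 1)))).map (rd p N) = 1 := by
    have := congrArg (fun M => Matrix.map M (rd p N)) c.inv_mul
    simp only [Matrix.map_mul, hc', hc, Matrix.mul_one] at this
    rw [this, Matrix.map_one _ (map_zero _) (map_one _)]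
  set x := e * a' with hx
  set y := (↑c⁻¹ : Matrix (Fin d) (Fin d) (ZMod (p ^ (N + 1)))) * (b' * e) with hy
  have hex : e * x = x := by rw [hx, ← Matrix.mul_assoc, he]
  have hye : y * e = y := by rw [hy, Matrix.mul_assoc, Matrix.mul_assoc, he]
  have hyx : y * x = 1 := by
    rw [hx, ← Matrix.mul_assoc, hye, hy, Matrix.mul_assoc, ← hc', c.inv_mul]
  have hid : IsIdempotentElem (e - x * y) := by
    rw [IsIdempotentElem, sub_mul, mul_sub, mul_sub, he, ← Matrix.mul_assoc e x y, hex,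
      Matrix.mul_assoc x y e, hye, Matrix.mul_assoc x y, ← Matrix.mul_assoc y x, hyx, Matrix.one_mul,
      sub_self, sub_zero]
  have h0 : (e - x * y).map (rd p N) = 0 := by
    rw [Matrix.map_sub _ (map_sub _), Matrix.map_mul, hx, hy, Matrix.map_mul, Matrix.map_mul,
      Matrix.map_mul, hci, ha, hb, Matrix.one_mul, ← hab, Matrix.mul_assoc a b a, hba, Matrix.mul_one,
      ← Matrix.mul_assoc b a b, hba, Matrix.one_mul, sub_self]
  have h1 := nil h0
  rw [hid.pow_succ_eq, sub_eq_zero] at h1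
  rw [hr, h1, Matrix.trace_mul_comm, hyx, Matrix.trace_one, Fintype.card_fin]

theorem lift_rep {Γ : Type u} [Group Γ] [Finite Γ] (φ : Γ →* GL n (ZMod p))
    (hΓ : ¬ p ∣ Nat.card Γ) : ∃ φ' : Γ →* GL n (ZMod (p ^ (N + 1))),
      ∀ g, (φ' g : Matrix n n (ZMod (p ^ (N + 1)))).map (rd p N) = φ g := by
  have : NeZero (p ^ (N + 1)) := ⟨pow_ne_zero _ hp.out.ne_zero⟩
  let E : Subgroup (Γ × GL n (ZMod (p ^ (N + 1)))) :=
    ((GeneralLinearGroup.map (rd p N)).comp (MonoidHom.snd _ _)).eqLocus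
      (φ.comp (MonoidHom.fst _ _))
  have hE : ∀ x : E, (x.1.2 : Matrix n n (ZMod (p ^ (N + 1)))).map (rd p N) = φ x.1.1 :=
    fun x => congrArg Units.val x.2
  let f : E →* Γ := (MonoidHom.fst _ _).comp E.subtype
  have hf : Function.Surjective f := by
    intro g
    obtain ⟨A, hA⟩ := exists_lift (N := N) (φ g : Matrix n n (ZMod p))
    obtain ⟨B, hB⟩ := exists_lift (N := N) (↑(φ g)⁻¹ : Matrix n n (ZMod p))
    have h1 : IsUnit (A * B) := unit_of (by rw [Matrix.map_mul, hA, hB, Units.mul_inv])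
    rw [Matrix.isUnit_iff_isUnit_det, Matrix.det_mul] at h1
    obtain ⟨u, rfl⟩ := (Matrix.isUnit_iff_isUnit_det A).mpr (isUnit_of_mul_isUnit_left h1)
    exact ⟨⟨(g, u), Units.ext hA⟩, rfl⟩
  have hk : IsPGroup p f.ker := by
    intro x
    have h1 : x.1.1.1 = 1 := x.2
    have h2 := hE x.1
    rw [h1, map_one] at h2
    refine ⟨N, Subtype.ext (Subtype.ext (Prod.ext ?_ (Units.ext ?_)))⟩
    · change x.1.1.1 ^ p ^ N = 1
      rw [h1, one_pow]
    · exact (Units.val_pow_eq_pow_val x.1.1.2 (p ^ N)).trans (pow_eq h2)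
  obtain ⟨m, hm⟩ := hk.exists_card_eq
  obtain ⟨C, hC⟩ := Subgroup.exists_right_complement'_of_coprime (N := f.ker) (by
    rw [hm, Subgroup.index_ker, MonoidHom.range_eq_top.mpr hf, Subgroup.card_top]
    exact ((Nat.Prime.coprime_iff_not_dvd hp.out).mpr hΓ).pow_left m)
  have hb : Function.Bijective (f.comp C.subtype) := by
    constructor
    · rw [injective_iff_map_eq_one]
      intro c hc
      exact Subtype.ext (Subgroup.disjoint_def.mp hC.disjoint hc c.2)
    · intro g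
      obtain ⟨x, rfl⟩ := hf g
      obtain ⟨⟨a, c⟩, rfl⟩ := hC.2 x
      refine ⟨c, ?_⟩
      change f c = f (a * c)
      rw [map_mul, show f a = 1 from a.2, one_mul]
  let s := (MulEquiv.ofBijective _ hb).symm
  refine ⟨(MonoidHom.snd _ _).comp (E.subtype.comp (C.subtype.comp s.toMonoidHom)), fun g => ?_⟩
  exact (hE (s g)).trans (congrArg (fun t => (φ t : Matrix n n (ZMod p)))
    ((MulEquiv.ofBijective _ hb).apply_symm_apply g))

open scoped Classical in
theorem sum_trace {Γ : Type u} [Group Γ] [Fintype Γ] {k : Type} [Field k] (j : ZMod p →+* k)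
    (φ : Γ →* GL n (ZMod (p ^ (N + 1)))) (ρ : Γ → End k (n → k))
    (hρ : ∀ g v, ρ g v = ((φ g : Matrix n n (ZMod (p ^ (N + 1)))).map (rd p N)).map j *ᵥ v)
    (hΓ : ¬ p ∣ Nat.card Γ) (K : Subgroup Γ) :
    ∑ g : K, (φ g : Matrix n n (ZMod (p ^ (N + 1)))).trace =
      Nat.card K * finrank k (Fx ρ (K : Set Γ)) := by
  have hK : ¬ p ∣ Nat.card K := fun h => hΓ (h.trans (Subgroup.card_subgroup_dvd_card K))
  obtain ⟨u, hu⟩ : IsUnit (Nat.card K : ZMod (p ^ (N + 1))) :=
    (ZMod.isUnit_iff_coprime _ _).mpr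
      (((Nat.Prime.coprime_iff_not_dvd hp.out).mpr hK).symm.pow_right _)
  set s : Matrix n n (ZMod (p ^ (N + 1))) := ∑ g : K, (φ g : Matrix n n _) with hs
  have hgs : ∀ g : K, (φ g : Matrix n n (ZMod (p ^ (N + 1)))) * s = s := by
    intro g
    rw [hs, Finset.mul_sum]
    refine Fintype.sum_equiv (Equiv.mulLeft g) _ _ (fun h => ?_)
    rw [← Units.val_mul, ← map_mul]
    rfl
  set e := (↑u⁻¹ : ZMod (p ^ (N + 1))) • s with he
  have hge : ∀ g : K, (φ g : Matrix n n (ZMod (p ^ (N + 1)))) * e = e := fun g => by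
    rw [he, Matrix.mul_smul, hgs]
  have hee : e * e = e := by
    conv_lhs => rw [he, Matrix.smul_mul, ← he, hs, Finset.sum_mul]
    simp only [hge]
    rw [Finset.sum_const, Finset.card_univ, ← Nat.card_eq_fintype_card,
      ← Nat.cast_smul_eq_nsmul (ZMod (p ^ (N + 1))), ← hu, smul_smul, Units.inv_mul, one_smul]
  let J : Matrix n n (ZMod (p ^ (N + 1))) →+* Matrix n n k := (j.comp (rd p N)).mapMatrix
  have hJ : ∀ A, J A = (A.map (rd p N)).map j := fun A => rfl
  have hF : Fx ρ (K : Set Γ) = LinearMap.range (J e).mulVecLin := by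
    ext v
    rw [mem_Fx]
    constructor
    · intro h
      refine ⟨v, ?_⟩
      have h1 : J e = j (rd p N (↑u⁻¹ : ZMod (p ^ (N + 1)))) • J s := by
        ext a b
        change j (rd p N (_ * s a b)) = _ * j (rd p N (s a b))
        rw [map_mul, map_mul]
      have h2 : J s *ᵥ v = (Nat.card K : k) • v := by
        have h3 : ∀ g : K, J (φ g) *ᵥ v = v := fun g => (hρ g v).symm.trans (h g g.2)
        rw [hs, map_sum, Matrix.sum_mulVec, Finset.sum_congr rfl (fun g _ => h3 g),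
          Finset.sum_const, Finset.card_univ, ← Nat.card_eq_fintype_card, Nat.cast_smul_eq_nsmul]
      rw [Matrix.mulVecLin_apply, h1, Matrix.smul_mulVec, h2, smul_smul, ← map_natCast j,
        ← map_natCast (rd p N), ← hu, ← map_mul, ← map_mul, Units.inv_mul, map_one, map_one, one_smul]
    · rintro ⟨w, rfl⟩ g hg
      rw [hρ, ← hJ, Matrix.mulVecLin_apply, Matrix.mulVec_mulVec, ← map_mul, hge ⟨g, hg⟩]
  rw [← Matrix.trace_sum, ← hs, hF, ← Matrix.rank, hJ, ← trace_idem hee j, he, Matrix.trace_smul,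
    smul_eq_mul, ← mul_assoc, ← hu, Units.mul_inv, one_mul]

theorem part {Γ : Type u} [Group Γ] [Finite Γ] {k : Type} [Field k] (j : ZMod p →+* k)
    (φ : Γ →* GL n (ZMod p)) (ρ : Γ → End k (n → k))
    (hρ : ∀ g v, ρ g v = (φ g : Matrix n n (ZMod p)).map j *ᵥ v) (hΓ : ¬ p ∣ Nat.card Γ)
    (P : Finset (Subgroup Γ)) (hP : ∀ g : Γ, g ≠ 1 → ∃! K, K ∈ P ∧ g ∈ K) :
    ∑ K ∈ P, ((Nat.card K : ℤ) * finrank k (Fx ρ (K : Set Γ)) - Fintype.card n) + Fintype.card n =
      Nat.card Γ * finrank k (Fx ρ Set.univ) := by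
  classical
  have := Fintype.ofFinite Γ
  rw [← sub_eq_zero]
  set z := ∑ K ∈ P, ((Nat.card K : ℤ) * finrank k (Fx ρ (K : Set Γ)) - Fintype.card n) +
    Fintype.card n - Nat.card Γ * finrank k (Fx ρ Set.univ) with hz
  have key : ∀ N : ℕ, ((p ^ (N + 1) : ℕ) : ℤ) ∣ z := by
    intro N
    rw [← ZMod.intCast_zmod_eq_zero_iff_dvd]
    obtain ⟨φ', hφ⟩ := lift_rep (N := N) φ hΓ
    have h1 := sum_trace j φ' ρ (fun g v => by rw [hφ, hρ]) hΓ
    set χ : Γ → ZMod (p ^ (N + 1)) := fun g => (φ' g : Matrix n n (ZMod (p ^ (N + 1)))).trace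
    have hχ : χ 1 = Fintype.card n := by simp [χ]
    have h2 : ∀ K : Subgroup Γ, (Nat.card K : ZMod (p ^ (N + 1))) * finrank k (Fx ρ (K : Set Γ)) -
        Fintype.card n = ∑ g ∈ Finset.univ.erase 1, if g ∈ K then χ g else 0 := by
      intro K
      rw [← h1 K, Finset.sum_erase_eq_sub (Finset.mem_univ _), if_pos (one_mem K), hχ,
        ← Finset.sum_filter]
      congr 1
      exact (Finset.sum_subtype _ (by simp) χ).symm
    have h3 := h2 ⊤
    rw [Subgroup.card_top, Subgroup.coe_top] at h3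
    rw [hz]
    push_cast
    simp only [h2]
    rw [Finset.sum_comm, add_sub_assoc, ← neg_sub, h3, ← sub_eq_add_neg, sub_eq_zero]
    refine Finset.sum_congr rfl (fun g hg => ?_)
    obtain ⟨K, ⟨hK1, hK2⟩, hK3⟩ := hP g (Finset.ne_of_mem_erase hg)
    rw [Finset.sum_eq_single_of_mem K hK1 (fun L hL hne => if_neg (fun h => hne (hK3 L ⟨hL, h⟩))),
      if_pos hK2, if_pos (Subgroup.mem_top g)]
  refine Int.eq_zero_of_abs_lt_dvd (key z.natAbs) ?_
  rw [Int.abs_eq_natAbs, Int.ofNat_lt]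
  exact (Nat.lt_succ_self _).trans (Nat.lt_pow_self hp.out.one_lt)

theorem adj_apply {D : ChevalleyDatum} [RS D] [Tab D] [Comm D] (g : D.group (ZMod 3))
    (v : D.Idx → K3) : H56.SL2M.adj D (ZMod 3) g v =
      (g.1 : Matrix D.Idx D.Idx (ZMod 3)).map (algebraMap (ZMod 3) K3) *ᵥ v := rfl

attribute [local instance] H65.tabE8 H65.commE8

theorem jobPart : H40.E8G.JobPart.{u} := by
  intro Γ _ _ ψ hΓ P hP
  have hc : Fintype.card chevE8.Idx = 248 := by
    rw [← Module.finrank_fintype_fun_eq_card K3, finrank_ad]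
  have := part (p := 3) (algebraMap (ZMod 3) K3) ((chevE8.group (ZMod 3)).subtype.comp ψ)
    (fun g => ad (ψ g)) (fun g v => adj_apply (ψ g) v) hΓ P hP
  rw [hc] at this
  exact this

end H87.E8Part
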