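import Cfsg.Agent.H11.FBSpec

/-! Tower FB, slot CD: the order facts. -/

set_option autoImplicit false

namespace H87.FbCD

open MulAction Subgroup H11.FB

universe u v

variable {G : Type u} {Ω : Type v} [Group G] [Finite G] [Fintype Ω] [MulAction G Ω]

omit [Finite G] in
theorem comm_small [FaithfulSMul G Ω] {a b c d : Ω} (ne : D4 a b c d) (hn : Fintype.card Ω ≤ 6)
    {k h : G} (hk : k ∈ L4 G a b c d) (hh : h ∈ L4 G a b c d) : h * k = k * h := by
  classical
  obtain ⟨n1, n2, n3, n4, n5, n6⟩ := ne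
  let T : Finset Ω := {a, b, c, d}ᶜ
  have cT : ¬ 2 < T.card := by
    rw [Finset.card_compl, Finset.card_insert_of_notMem (by simp [*]),
      Finset.card_insert_of_notMem (by simp [*]), Finset.card_pair n6]
    omega
  have fx : ∀ g ∈ L4 G a b c d, ∀ x, x ∉ T → g • x = x := fun g hg x hx => by
    obtain ⟨h1, h2, h3, h4⟩ := mem_L4.1 hg
    simp only [T, Finset.mem_compl, not_not, Finset.mem_insert, Finset.mem_singleton] at hx
    rcases hx with rfl | rfl | rfl | rfl <;> assumption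
  have mv : ∀ g ∈ L4 G a b c d, ∀ x ∈ T, g • x ∈ T := fun g hg x hx => by
    by_contra h1
    have h2 : g • x = x := MulAction.injective g (fx g hg _ h1)
    exact h1 (h2.symm ▸ hx)
  have tri : ∀ x ∈ T, ∀ y ∈ T, ∀ z ∈ T, x ≠ y → x ≠ z → y = z := fun x hx y hy z hz h1 h2 => by
    by_contra h3
    exact cT (Finset.two_lt_card_iff.2 ⟨x, y, z, hx, hy, hz, h1, h2, h3⟩)
  have one : ∀ k ∈ L4 G a b c d, ∀ h ∈ L4 G a b c d, ∀ x ∈ T, k • x = x → h • k • x = k • h • x :=
    fun k hk h hh x hx e => by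
      rw [e]
      by_cases e' : h • x = x
      · rw [e', e]
      · refine tri x hx _ (mv h hh x hx) _ (mv k hk _ (mv h hh x hx)) (Ne.symm e') fun m => e' ?_
        exact MulAction.injective k (m.symm.trans e.symm)
  refine eq_of_smul_eq_smul fun x : Ω => ?_
  rw [mul_smul, mul_smul]
  by_cases hx : x ∈ T
  swap
  · rw [fx k hk x hx, fx h hh x hx, fx k hk x hx]
  by_cases e1 : k • x = x
  · exact one k hk h hh x hx e1
  by_cases e2 : h • x = x
  · exact (one h hh k hk x hx e2).symm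
  have e3 := tri x hx _ (mv k hk x hx) _ (mv h hh x hx) (Ne.symm e1) (Ne.symm e2)
  refine tri _ (mv k hk x hx) _ (mv h hh _ (mv k hk x hx)) _ (mv k hk _ (mv h hh x hx))
    (fun m => e1 ?_) fun m => e2 ?_
  · exact (MulAction.injective h (e3.symm.trans m)).symm
  · exact (MulAction.injective k m).symm

omit [Finite G] in
theorem card_L {L K H : Subgroup G} (f : Fr L K H) : Nat.card L = Nat.card K * Nat.card H := by
  rw [← Nat.card_prod]
  refine (Nat.card_congr (Equiv.ofBijective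
    (fun p : K × H => (⟨p.1 * p.2, mul_mem (f.Kle p.1.2) (f.Hle p.2.2)⟩ : L)) ⟨?_, ?_⟩)).symm
  · rintro ⟨k, h⟩ ⟨k', h'⟩ e
    have e1 : (k : G) * h = k' * h' := congrArg Subtype.val e
    have e2 : (k' : G)⁻¹ * k = h' * (h : G)⁻¹ := by
      rw [inv_mul_eq_iff_eq_mul, ← mul_assoc, ← e1, mul_inv_cancel_right]
    have e3 := f.disj _ (mul_mem (inv_mem k'.2) k.2) (e2 ▸ mul_mem h'.2 (inv_mem h.2))
    exact Prod.ext (Subtype.ext (inv_mul_eq_one.1 e3).symm)
      (Subtype.ext (mul_inv_eq_one.1 (e2 ▸ e3)).symm)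
  · rintro ⟨l, hl⟩
    obtain ⟨k, hk, h, hh, e⟩ := f.fac l hl
    exact ⟨(⟨k, hk⟩, ⟨h, hh⟩), Subtype.ext e.symm⟩

theorem md {L K H : Subgroup G} (f : Fr L K H) (U : Subgroup G) (hU : U ≤ K) (hn : Nm H U) :
    Nat.card H ∣ Nat.card U - 1 := by
  let X : Set G := (U : Set G) \ {1}
  let _ : MulAction H X :=
    { smul := fun h x => ⟨h * x * (h : G)⁻¹, hn h h.2 x x.2.1, fun e => x.2.2 (by simpa using e)⟩
      one_smul := fun x => Subtype.ext (show ((1 : H) : G) * x * ((1 : H) : G)⁻¹ = x by simp)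
      mul_smul := fun h h' x => Subtype.ext
        (show ((h * h' : H) : G) * x * ((h * h' : H) : G)⁻¹ = h * (h' * x * (h' : G)⁻¹) * (h : G)⁻¹ by
          rw [coe_mul]; group) }
  have fr : ∀ x : X, stabilizer H x = ⊥ := fun x => eq_bot_iff.2 fun h hx => by
    have e : (h : G) * x * (h : G)⁻¹ = x := congrArg Subtype.val hx
    by_contra h1
    exact x.2.2 (f.fpf h.2 (fun m => h1 (mem_bot.2 (Subtype.ext m))) (hU x.2.1)
      (mul_inv_eq_iff_eq_mul.1 e))
  have h1 := Nat.card_congr (selfEquivOrbitsQuotientProd fr)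
  rw [Nat.card_prod, Nat.card_coe_set_eq, Set.ncard_sdiff_singleton_of_mem U.one_mem] at h1
  exact Dvd.intro_left _ h1.symm

theorem jobCD : JobCD.{u, v} := by
  intro G Ω _ _ _ _ _ a b c d K H hy
  have s7 : 7 ≤ Fintype.card Ω := by
    by_contra hn
    obtain ⟨⟨k, hk⟩, k1⟩ := ne_bot_iff_exists_ne_one.1 hy.fr.Kne
    obtain ⟨⟨h, hh⟩, h1⟩ := ne_bot_iff_exists_ne_one.1 hy.fr.Hne
    exact k1 (Subtype.ext (hy.fr.fpf hh (fun m => h1 (Subtype.ext m)) hk
      (comm_small hy.ne (by omega) (hy.fr.Kle hk) (hy.fr.Hle hh))))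
  obtain ⟨n1, n2, n3, n4, n5, n6⟩ := hy.ne
  have := hy.four
  have t3 : IsMultiplyPretransitive G Ω 3 :=
    isMultiplyPretransitive_of_le (n := 4) (by norm_num) (by rw [Nat.card_eq_fintype_card]; omega)
  have c3 : ({a, b, c} : Set Ω).ncard = 3 := Set.ncard_eq_three.2 ⟨a, b, c, n1, n2, n4, rfl⟩
  have c4 : ({a, b, c, d} : Set Ω).ncard = 4 := by
    rw [Set.ncard_insert_of_notMem (by simp [*]), Set.ncard_eq_three.2 ⟨b, c, d, n4, n5, n6, rfl⟩]
  have i3 := IsMultiplyPretransitive.index_of_fixingSubgroup_eq (G := G) {a, b, c} (c3 ▸ t3)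
  have i4 := IsMultiplyPretransitive.index_of_fixingSubgroup_eq (G := G) {a, b, c, d} (c4 ▸ hy.four)
  rw [c3] at i3
  rw [c4] at i4
  have e3 : fixingSubgroup G ({a, b, c} : Set Ω) = X3 G a b c := by
    ext g; simp [mem_fixingSubgroup_iff, and_assoc]
  have e4 : fixingSubgroup G ({a, b, c, d} : Set Ω) = L4 G a b c d := by
    ext g; simp [mem_fixingSubgroup_iff, and_assoc]
  rw [e3, mul_comm, ← Nat.descFactorial_eq_factorial_mul_choose, Nat.card_eq_fintype_card] at i3
  rw [e4, mul_comm, ← Nat.descFactorial_eq_factorial_mul_choose, Nat.card_eq_fintype_card,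
    Nat.descFactorial_succ, ← i3] at i4
  have g3 := (X3 G a b c).index_mul_card
  have g4 := (L4 G a b c d).index_mul_card
  refine ⟨s7, card_L hy.fr, ?_, ?_, md hy.fr⟩
  · refine Nat.eq_of_mul_eq_mul_left (Nat.pos_of_ne_zero (X3 G a b c).index_ne_zero_of_finite) ?_
    rw [g3, ← g4, i4]; ring
  · rw [← g3, i3]
    simp only [Nat.descFactorial_succ, Nat.descFactorial_zero, Nat.sub_zero]
    ring

end H87.FbCD
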