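import Cfsg.Agent.H36.NGSpec
import Cfsg.Agent.H29.PGroupChar
import Cfsg.Agent.H98.Basic

/-! Tower NG, slot A2: the degree `n p + 1` does not occur in the principal block. -/

set_option autoImplicit false

namespace H87.NgA

open Cfsg H87 H39 H2.PR H36.NG H28 Subgroup

universe u

variable {G : Type*} [Group G]

theorem ext_mem {H : Subgroup G} (θ : H → ℂ) {x : G} (hx : x ∈ H) :
    extendByZero H θ x = θ ⟨x, hx⟩ := Subtype.val_injective.extend_apply θ 0 ⟨x, hx⟩

theorem ext_not {H : Subgroup G} (θ : H → ℂ) {x : G} (hx : x ∉ H) : extendByZero H θ x = 0 :=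
  Function.extend_apply' θ (0 : G → ℂ) x fun ⟨a, ha⟩ => hx (ha ▸ a.2)

variable [Finite G] {p e h : ℕ} [hp : Fact p.Prime] {P : Subgroup G} {x y : G}

omit [Finite G] hp in
theorem cen_le (L : Lo p e h P x y) (hc : center G = ⊥) : Cen P ≤ P := fun c h => by
  obtain ⟨j, z, hz, rfl⟩ := L.cen c h
  rw [hc, mem_bot] at hz
  rw [hz, mul_one]
  exact pow_mem L.mem j

theorem le_cen (L : Lo p e h P x y) : P ≤ Cen P := by
  rw [← L.zpowers]
  rintro _ ⟨i, rfl⟩ _ ⟨j, rfl⟩
  exact ((Commute.refl y).zpow_zpow j i).eq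

theorem conj_P (L : Lo p e h P x y) {n z : G} (hn : n ∈ Nor P) (hn' : n ∉ Cen P) (hz : z ∈ P) :
    ∃ w ∈ P, w * n * w⁻¹ = n * z := by
  have h1 : Function.Injective fun w : P => (⟨n⁻¹ * w * n * (w : G)⁻¹, mul_mem
      ((mem_normalizer_iff''.1 hn w).1 w.2) (inv_mem w.2)⟩ : P) := fun a b hab => by
    have h2 : n⁻¹ * a * n * (a : G)⁻¹ = n⁻¹ * b * n * (b : G)⁻¹ := congrArg Subtype.val hab
    by_contra h3
    refine hn' ((centralizer_singleton_eq_prime L.card (b⁻¹ * a).2 fun h => h3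
      (Subtype.ext (inv_mul_eq_one.1 h).symm)).le (mem_centralizer_singleton_iff.2 ?_))
    calc n * ((b : G)⁻¹ * a) = (b : G)⁻¹ * n * (n⁻¹ * b * n * (b : G)⁻¹) * a := by group
      _ = (b : G)⁻¹ * a * n := by rw [← h2]; group
  obtain ⟨w, hw⟩ := Finite.surjective_of_injective h1 ⟨z, hz⟩
  refine ⟨w, w.2, ?_⟩
  rw [← show n⁻¹ * w * n * (w : G)⁻¹ = z from congrArg Subtype.val hw]
  group

/-- A conjugate of a non-trivial power of `x` is not in `P`. -/
theorem conj_not_mem (L : Lo p e h P x y) {b : ℕ} (hb : x ^ b ≠ 1) (g : G) :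
    g⁻¹ * x ^ b * g ∉ P := fun hm => by
  have e1 : orderOf (g⁻¹ * x ^ b * g) = orderOf (x ^ b) := by
    simpa using (MulAut.conj g⁻¹).orderOf_eq (x ^ b)
  refine L.not_dvd_orderOf_x (Dvd.dvd.trans (dvd_of_eq ?_) (orderOf_pow_dvd b))
  rw [← e1, orderOf_eq_of_mem hp.out L.card hm fun h => hb ?_]
  rwa [← orderOf_eq_one_iff, e1, orderOf_eq_one_iff] at h

theorem card_set (L : Lo p e h P x y) (hc : center G = ⊥) {b : ℕ} (hb : x ^ b ≠ 1) :
    Nat.card {g : G // g⁻¹ * x ^ b * g ∈ Nor P} = Nat.card (Nor (zpowers (x ^ b))) * p := by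
  have hN : zpowers (x ^ b) ≤ Nor P := zpowers_le_of_mem (pow_mem L.x_mem b)
  have hcj : ∀ k ∈ Nor (zpowers (x ^ b)), k⁻¹ * x ^ b * k ∈ zpowers (x ^ b) := fun k hk =>
    (mem_normalizer_iff''.1 hk _).1 (mem_zpowers _)
  rw [← L.card, ← Nat.card_prod]
  refine (Nat.card_eq_of_bijective (fun q : Nor (zpowers (x ^ b)) × P =>
    (⟨q.1 * q.2, ?_⟩ : {g : G // g⁻¹ * x ^ b * g ∈ Nor P})) ⟨?_, ?_⟩).symm
  · have := mul_mem (mul_mem (inv_mem (le_normalizer q.2.2)) (hN (hcj _ q.1.2)))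
      (le_normalizer q.2.2)
    convert this using 1
    group
  · rintro ⟨⟨k, hk⟩, z, hz⟩ ⟨⟨k', hk'⟩, z', hz'⟩ e0
    have e1 : k * z = k' * z' := congrArg Subtype.val e0
    have e2 : k'⁻¹ * k = z' * z⁻¹ := by
      rw [inv_mul_eq_iff_eq_mul, ← mul_assoc, ← e1, mul_inv_cancel_right]
    have hu : z' * z⁻¹ ∈ P := mul_mem hz' (inv_mem hz)
    have hu' : z' * z⁻¹ ∈ Nor (zpowers (x ^ b)) := e2 ▸ mul_mem (inv_mem hk') hk
    have e3 : z' * z⁻¹ = 1 := by
      generalize z' * z⁻¹ = u at hu hu'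
      by_contra u1
      have m1 : (x ^ b)⁻¹ * (u⁻¹ * x ^ b * u) ∈ zpowers x :=
        zpowers_le_of_mem (npow_mem_zpowers x b) (mul_mem (inv_mem (mem_zpowers _)) (hcj u hu'))
      have m2 : (x ^ b)⁻¹ * (u⁻¹ * x ^ b * u) ∈ P := by
        have := mul_mem ((mem_normalizer_iff''.1 (pow_mem L.x_mem b) _).1 (inv_mem hu)) hu
        convert this using 1
        group
      have m3 : (x ^ b)⁻¹ * (u⁻¹ * x ^ b * u) = 1 := by_contra fun h1 => L.not_dvd_orderOf_x
        (orderOf_eq_of_mem hp.out L.card m2 h1 ▸ orderOf_dvd_of_mem_zpowers m1)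
      refine conj_not_mem L hb 1 ?_
      rw [inv_one, one_mul, mul_one]
      refine cen_le L hc ((centralizer_singleton_eq_prime L.card hu u1).le
        (mem_centralizer_singleton_iff.2 ?_))
      calc x ^ b * u = u * x ^ b * ((x ^ b)⁻¹ * (u⁻¹ * x ^ b * u)) := by group
        _ = _ := by rw [m3, mul_one]
    rw [e3, inv_mul_eq_one] at e2
    rw [mul_inv_eq_one] at e3
    exact Prod.ext (Subtype.ext e2.symm) (Subtype.ext e3.symm)
  · rintro ⟨g, hg⟩
    obtain ⟨a, -, c, hc', e1⟩ := L.nor _ hg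
    have ha : x ^ a ∉ Cen P := fun h => conj_not_mem L hb g (e1 ▸ cen_le L hc (mul_mem h hc'))
    obtain ⟨w, hw, e2⟩ := conj_P L (pow_mem L.x_mem a) ha (cen_le L hc hc')
    have e3 : (g * w)⁻¹ * x ^ b * (g * w) = x ^ a := by
      calc _ = w⁻¹ * (g⁻¹ * x ^ b * g) * w := by group
        _ = _ := by rw [e1, ← e2]; group
    have e4 : orderOf (x ^ a) = orderOf (x ^ b) := by
      rw [← e3]; simpa only [MulAut.conj_apply, inv_inv] using (MulAut.conj (g * w)⁻¹).orderOf_eq (x ^ b)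
    have m1 : x ^ a ∈ zpowers (x ^ b) := by
      obtain ⟨k, hk⟩ := H29.mem_zpowers_of_isCyclic (Z := zpowers x)
        (x := ⟨x ^ b, npow_mem_zpowers x b⟩) (z := ⟨x ^ a, npow_mem_zpowers x a⟩) (Subtype.ext (by
          rw [← orderOf_coe]
          change (x ^ a) ^ orderOf (x ^ b) = 1
          rw [← e4, pow_orderOf_eq_one]))
      exact ⟨k, by simpa using congrArg Subtype.val hk⟩
    have m2 : (g * w)⁻¹ ∈ Nor (zpowers (x ^ b)) := H98.mem_normalizer_of_cj_le (by
      rw [H98.cj_le_iff]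
      exact zpowers_le_of_mem (H98.mem_cj.2 (by simpa only [inv_inv, e3] using m1)))
    exact ⟨⟨⟨g * w, by simpa using inv_mem m2⟩, ⟨w⁻¹, inv_mem hw⟩⟩, Subtype.ext (by simp)⟩

theorem arith {p U K n e c : ℕ} (hp : p.Prime) (h1 : p = U * K + 1) (h2 : 2 ≤ U)
    (h4 : n + K + 1 = p + U) (h5 : n + 1 + 2 ≤ p) (he : 0 < e) (hc : c = (n + 1) * e)
    (hd : c ∣ p * e * (n * p + 1)) : False := by
  rw [hc, mul_comm p e, mul_assoc, mul_comm (n + 1)] at hd
  have h6 := Nat.dvd_of_mul_dvd_mul_left he hd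
  have h7 : (n + 1).Coprime p := ((Nat.coprime_of_lt_prime (by omega) (by omega) hp)).symm
  have h8 : n + 1 ∣ U * K := by
    have := h7.dvd_of_dvd_mul_left h6
    have e1 : (n + 1) * p = n * p + 1 + U * K := by rw [add_mul, one_mul]; omega
    exact (Nat.dvd_add_right this).1 (e1 ▸ dvd_mul_right _ _)
  obtain ⟨k, hk⟩ := h8
  have h9 : 2 * K ≤ U * K := Nat.mul_le_mul_right K h2
  rcases k with _ | _ | k
  · omega
  · omega
  · have : (n + 1) * 2 ≤ (n + 1) * (k + 1 + 1) := Nat.mul_le_mul_left _ (by omega)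
    omega

end H87.NgA

namespace H87.NgA

open Cfsg H87 H39 H2.PR H36.NG H28 Subgroup

universe u

theorem core {G : Type u} [Group G] [Fintype G] {p U K n e t h : ℕ} [hp : Fact p.Prime]
    {P : Sylow p G} {X Y : Finset (IrrCharacter G)} {δ : IrrCharacter G → ℤ} {ε d : ℤ} {x y : G}
    {lam : Nor (P : Subgroup G) →* ℂˣ} {ω : ℂ} (A : All p U K n e t h P X Y δ ε d x y lam ω)
    (T : Finset (IrrCharacter G)) (hne : T.Nonempty) (h1 : one G ∉ T)
    (hdeg : ∑ θ ∈ T, dg θ = n * p + 1) (hval : ∀ g, p ∣ orderOf g → ∑ θ ∈ T, (θ : G → ℂ) g = 1)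
    (huni : ∀ i, ∀ θ ∈ T, ∀ θ' ∈ T, mlt (LL lam i) θ = mlt (LL lam i) θ') (hw : T.card ≤ t) :
    False := by
  classical
  have L := A.sc.lo
  set v : G → ℂ := ∑ θ ∈ T, (θ : G → ℂ) with hv
  have cv : IsCharacter G v := isCharacter_sum T fun θ _ => θ.2.isCharacter
  have mv : ∀ ψ, mlt v ψ = if ψ ∈ T then 1 else 0 := fun ψ => mlt_eq (by
    rw [hv, classInner_sum_left]
    simp [classInner_irr])
  have dv : charDegree v = n * p + 1 := by
    rw [degree_eq_sum_mlt cv, ← hdeg]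
    simp [mv]
  have dich : ∀ i, LL lam i ≠ v → ∀ θ ∈ T, mlt (LL lam i) θ = 0 := fun i hi θ hθ => by
    by_contra h0
    have e1 : ∑ ψ ∈ T, mlt (LL lam i) ψ * dg ψ = mlt (LL lam i) θ * (n * p + 1) := by
      rw [← hdeg, Finset.mul_sum]
      exact Finset.sum_congr rfl fun ψ hψ => by rw [huni i ψ hψ θ hθ]
    have e2 := sum_mlt_le (A.m1.chL i) T
    rw [e1, A.m1.dgL] at e2
    have e3 : mlt (LL lam i) θ = 1 := by
      have := Nat.le_of_mul_le_mul_right (e2.trans (one_mul _).ge) (Nat.succ_pos _)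
      omega
    refine hi ((eq_sum_of_le (A.m1.chL i) (s := T) (by rw [e1, e3, A.m1.dgL, one_mul])).trans ?_)
    exact Finset.sum_congr rfl fun ψ hψ => by rw [huni i ψ hψ θ hθ, e3, Nat.cast_one, one_smul]
  have mmv : ∀ i, mm (LL lam i) v = if LL lam i = v then T.card else 0 := fun i => by
    rw [A.m2.add v cv i]
    split_ifs with hi
    · simp [hi, mv]
    · exact Finset.sum_eq_zero fun ψ _ => by
        rw [mv]
        split_ifs with hψ
        · rw [dich i hi ψ hψ, mul_zero]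
        · rw [zero_mul]
  set S := (Finset.range e).filter fun i => LL lam i = v with hS
  have sm : ∑ i ∈ Finset.range e, mm (LL lam i) v = S.card * T.card := by
    simp only [mmv]
    rw [← Finset.sum_filter, Finset.sum_const, smul_eq_mul]
  have cnt : S.card * T.card = n + 1 := by
    have := A.m2.sum v cv 1 fun g hg => by rw [hv, Finset.sum_apply, hval g hg, Int.cast_one]
    rw [sm, dv] at this
    have p0 : (p : ℤ) ≠ 0 := Int.natCast_ne_zero.2 hp.out.ne_zero
    exact Nat.cast_injective (R := ℤ) (mul_left_cancel₀ p0 (by rw [this]; push_cast; ring))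
  have l0 : LL lam 0 ≠ v := fun h => by
    have := A.m1.one 0 L.e_pos
    rw [h, mv, if_neg h1, if_pos rfl] at this
    exact zero_ne_one this
  have cS : S.card + 1 ≤ e := by
    have := Finset.card_lt_card (Finset.filter_ssubset.2 ⟨0, Finset.mem_range.2 L.e_pos, l0⟩ :
      S ⊂ Finset.range e)
    rwa [Finset.card_range] at this
  have bound : n + 1 + 2 ≤ p := by
    have h2 := A.cf.br.te
    have h3 := A.cf.br.t_pos
    have h4 : S.card * T.card ≤ S.card * t := Nat.mul_le_mul_left _ hw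
    have h5 : t * (S.card + 1) ≤ t * e := Nat.mul_le_mul_left _ cS
    rw [mul_add, mul_comm t] at h5
    omega
  have vx : ∀ b, ¬ e ∣ b → v (x ^ b) = T.card * ∑ i ∈ S, ω ^ (i * b) := fun b hb => by
    rw [A.m2.val v cv b hb, Finset.mul_sum, hS, Finset.sum_filter]
    exact Finset.sum_congr rfl fun i _ => by rw [mmv]; split_ifs <;> simp
  have vN : ∀ z : Nor (P : Subgroup G), (z : G) ∉ (P : Subgroup G) →
      v z = T.card * ∑ i ∈ S, (lam z : ℂ) ^ i := fun z hz => by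
    obtain ⟨a, -, c, hc, e1⟩ := L.nor z z.2
    have hcP := cen_le L A.sc.cen hc
    have ha : x ^ a ∉ Cen (P : Subgroup G) := fun h => hz (e1 ▸ cen_le L A.sc.cen (mul_mem h hc))
    have e2 : z = ⟨x, L.x_mem⟩ ^ a * ⟨c, le_normalizer hcP⟩ := Subtype.ext e1
    have e3 : (lam z : ℂ) = ω ^ a := by
      rw [e2, map_mul, A.sc.triv ⟨c, _⟩ hcP, mul_one, map_pow, Units.val_pow_eq_pow_val, A.sc.val]
    rw [e1, ← cv.isClassFunction.eq_of_isConj (L.isConj (pow_mem L.x_mem a) ha hcP),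
      vx a (mt L.pow_mem_cen_iff.2 ha), e3]
    simp only [← pow_mul, mul_comm a]
  obtain ⟨b, hb, vb⟩ : ∃ b, ¬ e ∣ b ∧ v (x ^ b) ≠ 0 := by
    by_contra! h0
    have := A.m2.flat v cv h0 0 L.e_pos
    rw [sm, cnt, mmv, if_neg l0] at this
    omega
  have xb : x ^ b ≠ 1 := fun h => hb (A.m1.ord ▸ orderOf_dvd_of_pow_eq_one h)
  have key : (T.card : ℂ) * ∑ i ∈ S, LL lam i (x ^ b) = (Nat.card (Nor (P : Subgroup G)) : ℂ)⁻¹ *
      (Nat.card {g : G // g⁻¹ * x ^ b * g ∈ Nor (P : Subgroup G)} * v (x ^ b)) := by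
    simp only [LL, indFun]
    rw [← Finset.mul_sum, Finset.sum_comm, mul_left_comm, Finset.mul_sum Finset.univ,
      Nat.card_eq_fintype_card (α := {g : G // g⁻¹ * x ^ b * g ∈ Nor (P : Subgroup G)}),
      Fintype.card_subtype, ← nsmul_eq_mul,
      ← Finset.sum_const, Finset.sum_filter]
    refine congrArg _ (Finset.sum_congr rfl fun g _ => ?_)
    split_ifs with hg
    · simp only [ext_mem _ hg]
      rw [← vN ⟨_, hg⟩ (conj_not_mem L xb g)]
      simpa using cv.isClassFunction (x ^ b) g⁻¹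
    · simp [ext_not _ hg]
  rw [Finset.sum_congr rfl fun i hi => congrFun (Finset.mem_filter.1 hi).2 (x ^ b),
    Finset.sum_const, nsmul_eq_mul, card_set L A.sc.cen xb, L.card_nor, A.sc.cen, card_bot, mul_one,
    ← mul_assoc, ← mul_assoc] at key
  have k2 := mul_right_cancel₀ vb key
  have e0 : (e : ℂ) ≠ 0 := Nat.cast_ne_zero.2 L.e_pos.ne'
  have p0 : (p : ℂ) ≠ 0 := Nat.cast_ne_zero.2 hp.out.ne_zero
  have k3 : Nat.card (Nor (zpowers (x ^ b))) = (n + 1) * e := by
    rw [← cnt]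
    refine Nat.cast_injective (R := ℂ) ?_
    push_cast at k2 ⊢
    field_simp at k2
    linear_combination -k2
  exact arith hp.out A.cf.UK A.cf.two A.cf.hn bound L.e_pos k3
    (A.m1.card ▸ card_subgroup_dvd_card _)

theorem jobA2 : JobA2.{u} := by
  intro G _ _ p U K n e t h hp P X Y δ ε d x y lam ω A
  have np : 0 < n * p := by
    have := A.cf.hn
    have := A.cf.UK
    have := Nat.mul_le_mul_right K A.cf.two
    exact Nat.mul_pos (by have := A.cf.two; omega) hp.out.pos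
  refine ⟨Finset.card_eq_zero.2 (Finset.eq_empty_of_forall_notMem fun χ hχ => ?_), fun hd => ?_⟩
  · obtain ⟨h1, h2, h3⟩ := Finset.mem_filter.1 hχ
    refine core A {χ} (Finset.singleton_nonempty χ) (fun e => ?_) (by simpa using h3)
      (fun g hg => by simp [A.cf.br.valX χ h1 g hg, h2]) (by simp) (by rw [Finset.card_singleton]; exact A.cf.br.t_pos)
    rw [← Finset.mem_singleton.1 e, dg_one] at h3
    omega
  · obtain ⟨θ, hθ⟩ := A.cf.br.Y_nonempty
    have h1 := A.ty.hY θ hθ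
    have hε : ε = -1 := A.cf.br.sε.resolve_left fun e => by
      rw [e, hd] at h1
      have : (0 : ℤ) ≤ t * dg θ := by positivity
      have : (0 : ℤ) ≤ p * n := by positivity
      omega
    refine core A Y ⟨θ, hθ⟩ (fun e => A.cf.br.ne_one e rfl) ?_
      (fun g hg => by rw [A.cf.br.valY g hg, hε]; simp)
      (fun i => A.m1.uni _ (A.m1.chL i) 1 fun g hg => by rw [A.m1.vL i g hg, Int.cast_one])
      A.cf.br.cardY.le
    rw [Finset.sum_congr rfl fun ψ hψ => A.cf.br.dg_eq hψ hθ, Finset.sum_const, A.cf.br.cardY,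
      smul_eq_mul]
    rw [hε, hd] at h1
    exact Nat.cast_injective (R := ℤ) (by push_cast; linarith)

end H87.NgA
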