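import Cfsg.Agent.H52.RCSpec

/-! Slots LW and YY of tower RC. -/

set_option autoImplicit false

namespace H87.RcLW
open H52.RC Subgroup
universe u

theorem jobYY : JobYY.{u} := by
  intro hKA hLZ hY1 hY2a hY2b G _ _ m L _ hSt v
  refine ⟨fun hsg => ?_, fun hrg htwo => ((hKA G).1 _).1 (hY1 G m L hSt v hrg htwo)⟩
  by_cases htwo : Two L v
  · exact ((hKA G).1 _).1 (hY1 G m L hSt v hsg.rg htwo)
  · apply ((hKA G).1 _).1
    apply hY2b G L hSt.2 v hsg
    intro g y hg hy hyC hodd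
    have hv := (hLZ G m L hSt).2.2.2 v hsg.rg
    exact hY2a G m L hSt v hsg.rg htwo g y hg hy
      ((hv.2.2.2.2.2.1 y hyC).2.2.2.2 hodd).symm hodd

section
variable {G : Type u} [Group G]

theorem norm_of_cl {K T : Subgroup G} (hTK : T ≤ K) (h2 : ∀ t ∈ T, P2 t)
    (hall : ∀ x ∈ K, P2 x → x ∈ T) {g : G} (hg : g ∈ normalizer (K : Set G)) :
    g ∈ normalizer (T : Set G) := by
  rw [mem_normalizer_iff] at hg ⊢
  intro h
  constructor
  · intro hh
    exact hall _ ((hg h).1 (hTK hh)) ((h2 h hh).conj g)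
  · intro hh
    refine hall _ ((hg h).2 (hTK hh)) ?_
    have := (h2 _ hh).conj g⁻¹
    have e : g⁻¹ * (g * h * g⁻¹) * g⁻¹⁻¹ = h := by group
    rwa [e] at this

theorem comm_conj {g x v : G} (hg : g ∈ Cs x) (h : Commute x v) : Commute x (g * v * g⁻¹) := by
  have hg' : g⁻¹ ∈ Cs x := inv_mem hg
  have key : Commute (g⁻¹ * x * g⁻¹⁻¹) v := by
    rcases mem_Cs.1 hg' with h1 | h1
    · rw [h1]; exact h
    · unfold H52.RC.Inv at h1; rw [h1]; exact h.inv_left
  have e := key.eq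
  change x * (g * v * g⁻¹) = (g * v * g⁻¹) * x
  calc x * (g * v * g⁻¹) = g * (g⁻¹ * x * g⁻¹⁻¹ * v) * g⁻¹ := by group
    _ = g * (v * (g⁻¹ * x * g⁻¹⁻¹)) * g⁻¹ := by rw [e]
    _ = (g * v * g⁻¹) * x := by group

end

theorem jobLW : JobLW.{u} := by
  intro hKA hKB hLX hLZ hYY hBAL hDS G _ _ m L _ hSt v x hrg hcl hodd hre hxv
  by_cases hx1 : x = 1
  · subst hx1
    exact ⟨hodd, fun t _ _ => Commute.one_right t⟩
  have h5 := (hKA G).2.2.2.2.1
  have hZ := (hLZ G m L hSt).2.2.2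
  have hvP : P2 v := (hZ v hrg).1
  have hR2 : IsPGroup 2 (zpowers v) := by
    obtain ⟨k, hk⟩ := hvP
    rw [h5]
    rintro g ⟨i, rfl⟩
    refine ⟨k, ?_⟩
    change (v ^ i) ^ 2 ^ k = 1
    rw [← zpow_natCast, ← zpow_mul, mul_comm, zpow_mul, zpow_natCast, hk, one_zpow]
  have hRC : zpowers v ≤ Cs x := by
    rw [zpowers_le]
    refine mem_Cs.2 (Or.inl ?_)
    rw [← hxv.eq]; group
  obtain ⟨T, hvT, hXS⟩ := (hKB G m hSt.1 x hodd hx1 hre).2.2.2 _ hR2 hRC
  have main : ∀ n : ℕ, ∀ v : G, v ∈ T → RG L v → Cl (C1 v) → Commute x v →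
      Nat.card T - Nat.card (T ⊓ Ct L v : Subgroup G) = n → Wv v x := by
    intro n
    induction n using Nat.strong_induction_on with
    | _ n ih =>
      intro v hvT hrg hcl hxv hn
      by_cases hT : T ≤ Ct L v
      · obtain ⟨Tv, hTK, hT2, hall⟩ := hcl
        have h2 := (h5 Tv).1 hT2
        have hxn : x ∈ normalizer (Tv : Set G) :=
          norm_of_cl hTK h2 hall (le_normalizer (mem_C1.2 hxv))
        have hTn : T ≤ normalizer (Tv : Set G) := fun g hg =>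
          norm_of_cl hTK h2 hall ((hZ v hrg).2.2.2.2.2.1 g (hT hg)).2.2.2.1
        refine ⟨hodd, fun t ht htv => ?_⟩
        exact hLX G m hSt.1 x T Tv hodd hx1 hXS hT2 hxn hTn t (hall t (mem_C1.2 htv) ht)
      · obtain ⟨g, hgT, hsg, hct, hlt⟩ := hDS G m L hSt T v hXS.2.1 hvT hrg hT
        have hw1T : v⁻¹ * (g * v * g⁻¹) ∈ T :=
          mul_mem (inv_mem hvT) (mul_mem (mul_mem hgT hvT) (inv_mem hgT))
        have hxw : Commute x (v⁻¹ * (g * v * g⁻¹)) :=
          hxv.inv_right.mul_right (comm_conj (hXS.1 hgT) hxv)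
        have hc1 : Nat.card (T ⊓ Ct L v : Subgroup G)
            < Nat.card (T ⊓ Ct L (v⁻¹ * (g * v * g⁻¹)) : Subgroup G) := by
          refine lt_of_le_of_ne (card_le_of_le hlt.le) (fun he => hlt.ne ?_)
          exact eq_of_le_of_card_ge hlt.le he.ge
        have hc2 : Nat.card (T ⊓ Ct L (v⁻¹ * (g * v * g⁻¹)) : Subgroup G) ≤ Nat.card T :=
          card_le_of_le inf_le_left
        have hW := ih _ (by omega) _ hw1T hsg.rg ((hYY G m L hSt _).1 hsg) hxw rfl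
        exact hBAL G m L hSt _ v x (hZ _ hsg.rg).1 hrg hcl hct hW hxv
  exact main _ v (hvT (mem_zpowers v)) hrg hcl hxv rfl

end H87.RcLW
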