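import Cfsg.Agent.H91.VCSpec

/-! VC tower: colourings with prescribed class sizes. -/

set_option autoImplicit false

namespace H87.VC

open H91.VC Subgroup MulAction

theorem exists_col0 {Ω : Type} [Finite Ω] {c : ℕ} {n : ℕ → ℕ}
    (h : ∑ i ∈ Finset.range c, n i = Nat.card Ω) :
    ∃ χ : Ω → ℕ, (∀ x, χ x < c) ∧ ∀ i < c, {x | χ x = i}.ncard = n i := by
  cases nonempty_fintype Ω
  have e : Ω ≃ Σ i : Fin c, Fin (n i) := by
    refine Fintype.equivOfCardEq ?_
    rw [← Nat.card_eq_fintype_card, ← h, Fintype.card_sigma, Finset.sum_range]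
    simp
  refine ⟨fun x => (e x).1, fun x => (e x).1.2, fun i hi => ?_⟩
  rw [← Nat.card_coe_set_eq]
  have e2 : {x | ((e x).1 : ℕ) = i} ≃ {s : Σ i : Fin c, Fin (n i) // s.1 = ⟨i, hi⟩} :=
    e.subtypeEquiv fun x => by simp [Fin.ext_iff]
  rw [Nat.card_congr (e2.trans (Equiv.sigmaSubtype _))]
  simp

theorem exists_col {Ω : Type} [Finite Ω] {c ρ : ℕ} {n : ℕ → ℕ} (B : Finset Ω)
    (h : ∑ i ∈ Finset.range c, n i = Nat.card Ω) (hB : B.card + n ρ ≤ Nat.card Ω) :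
    ∃ χ : Ω → ℕ, (∀ x, χ x < c) ∧ (∀ i < c, {x | χ x = i}.ncard = n i) ∧ ∀ x ∈ B, χ x ≠ ρ := by
  classical
  obtain ⟨χ, h1, h2⟩ := exists_col0 h
  by_cases hρ : ρ < c
  swap
  · exact ⟨χ, h1, h2, fun x _ e => hρ (e ▸ h1 x)⟩
  cases nonempty_fintype Ω
  have h3 : (Finset.univ.filter fun x => χ x = ρ).card = n ρ := by
    rw [← h2 ρ hρ, ← Set.ncard_coe_finset]
    congr 1
    ext; simp
  obtain ⟨R, hR, hc⟩ := Finset.exists_subset_card_eq (s := Bᶜ) (n := n ρ) (by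
    rw [Finset.card_compl, ← Nat.card_eq_fintype_card]; omega)
  obtain ⟨σ, hσ⟩ := Equiv.Perm.exists_map_finset_eq R _ (hc.trans h3.symm)
  refine ⟨fun x => χ (σ x), fun x => h1 _, fun i hi => ?_, fun x hx e => ?_⟩
  · rw [← h2 i hi]
    exact Set.ncard_preimage_of_injective_subset_range (s := {x | χ x = i}) σ.injective
      (by rw [σ.surjective.range_eq]; exact Set.subset_univ _)
  · have : σ x ∈ R.map σ.toEmbedding := by rw [hσ]; simpa using e
    have h4 : x ∈ R := by simpa using this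
    exact Finset.mem_compl.1 (hR h4) hx

theorem jobCOL : JobCOL := by
  intro pd G Ω _ _ _ _ hs B c c' L hL hB ⟨n, ρ, h1, h2⟩
  have : ∀ j, ∃ χ : Ω → ℕ, j < c' → (∀ x, χ x < c) ∧ (∀ i < c, {x | χ x = i}.ncard = n j i) ∧
      ∀ x ∈ B, χ x ≠ ρ j := fun j => by
    by_cases hj : j < c'
    · obtain ⟨χ, h⟩ := exists_col B (h1 j hj).1 (h1 j hj).2.1
      exact ⟨χ, fun _ => h⟩
    · exact ⟨fun _ => 0, fun h => absurd h hj⟩
  choose χ hχ using this
  refine ⟨χ, fun j hj => ⟨(hχ j hj).1, fun g hg => hB g fun x hx => ?_⟩,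
    fun j hj k hk g hg => h2 j hj k hk fun i hi => ?_⟩
  · refine pd G hs (cst G (χ j)) (stabilizer G x) L hL ?_ hg
    have e : (stabilizer G x).relIndex (cst G (χ j)) = (orbit (cst G (χ j)) x).ncard :=
      index_stabilizer (cst G (χ j)) x
    rw [e]
    refine le_trans (Set.ncard_le_ncard (t := {y | χ j y = χ j x}) ?_) ?_
    · rintro _ ⟨a, rfl⟩
      exact a.2 x
    · rw [(hχ j hj).2.1 _ ((hχ j hj).1 x)]
      exact (h1 j hj).2.2 _ ((hχ j hj).1 x) ((hχ j hj).2.2 x hx)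
  · rw [← (hχ j hj).2.1 i hi, ← (hχ k hk).2.1 i hi, ← funext hg]
    exact (Set.ncard_preimage_of_injective_subset_range (s := {x | χ j x = i})
      (MulAction.injective g) (by
        rw [(MulAction.surjective g).range_eq]; exact Set.subset_univ _)).symm

end H87.VC
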