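import Cfsg.Agent.H91.VCSpec

/-! VC tower: derived length of solvable permutation groups of degree at most 7. -/

set_option autoImplicit false

namespace H87.VC

open H91.VC H33.Solv Subgroup MulAction
open scoped commutatorElement

theorem ds_le_of_sub {G : Type} [Group G] {X H : Subgroup G} {n : ℕ}
    (h : ds (⊤ : Subgroup X) n ≤ H.subgroupOf X) : ds X n ≤ H := by
  rw [← ds_sub]
  exact map_le_iff_le_comap.2 h

theorem coatom_step (aff : JobAFF) (dl : DL) {G : Type} [Group G] [Finite G]
    (hs : Group.IsSolvable G) {L : Subgroup G} (hL : IsCoatom L) (h : L.index < 65536) :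
    ds (⊤ : Subgroup G) (FF L.index + 1) ≤ L := by
  obtain ⟨M, _, _, _, β, A⟩ := aff G L hs hL
  have hY := dl G M hs A.irr.cr (A.card ▸ h)
  rw [A.card] at hY
  have b1 : β 1 = 0 := by
    have := A.coc 1 1
    rw [one_mul, one_smul] at this
    exact left_eq_add.1 this
  have ad : ∀ g ∈ ds (⊤ : Subgroup G) (FF L.index), ∀ x, β (g * x) = β g + β x :=
    fun g hg x => by rw [A.coc, hY g hg]
  refine commutator_le.2 fun a ha b hb => ?_
  have h1 := ad a ha a⁻¹
  have h2 := ad b hb b⁻¹
  rw [mul_inv_cancel, b1] at h1 h2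
  have h3 : β 1 = β ⁅a, b⁆ := by
    rw [commutatorElement_def, mul_assoc, mul_assoc, ad a ha, ad b hb, ad _ (inv_mem ha), b1,
      add_left_comm (β b), ← h2, add_zero, ← h1]
  simpa using (A.eq _ _).1 h3

theorem arith (m j : ℕ) (hm : 2 ≤ m) (hj : 1 ≤ j) (h : j * m ≤ 7) :
    FF m + 1 + hh j ≤ hh (j * m) := by
  have h1 : m ≤ 7 := by nlinarith
  have h2 : j ≤ 3 := by nlinarith
  interval_cases m <;> interval_cases j <;> first | omega | decide

theorem top_le (aff : JobAFF) (dl : DL) (n : ℕ) : ∀ (G : Type) [Group G] [Finite G],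
    Group.IsSolvable G → ∀ H : Subgroup G, H.index = n → n ≤ 7 → ds (⊤ : Subgroup G) (hh n) ≤ H := by
  induction n using Nat.strong_induction_on with
  | _ n ih =>
    intro G _ _ hs H hn h7
    rcases eq_top_or_exists_le_coatom H with rfl | ⟨L, hL, hHL⟩
    · exact le_top
    have e : H.relIndex L * L.index = n := hn ▸ relIndex_mul_index hHL
    have h2 : 2 ≤ L.index := by
      have h0 : L.index ≠ 0 := index_ne_zero_of_finite
      have h1 : L.index ≠ 1 := fun h => hL.1 (index_eq_one.1 h)
      omega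
    have h1 : 1 ≤ H.relIndex L := Nat.pos_of_ne_zero index_ne_zero_of_finite
    have h3 := ih (H.relIndex L) (by nlinarith) L inferInstance (H.subgroupOf L) rfl (by nlinarith)
    refine (ds_anti _ ?_).trans (ds_trans (coatom_step aff dl hs hL (by nlinarith))
      (ds_le_of_sub h3))
    rw [← e]
    exact arith _ _ h2 h1 (e ▸ h7)

theorem hh_mono {a b : ℕ} (h : a ≤ b) : hh a ≤ hh b := by
  unfold hh
  split_ifs <;> omega

theorem jobPD : JobPD := fun aff dl _ _ _ _ X H _ hL h =>
  (ds_anti _ (hh_mono h)).trans (ds_le_of_sub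
    (top_le aff dl _ X inferInstance (H.subgroupOf X) rfl (h.trans hL)))

end H87.VC
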